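import Mathlib
import Cfsg.Agent.Lib.Helper16.ZClassify

/-!
# Excluding the order-48 configuration (helper78, for helper16's Zassenhaus project)
-/

set_option autoImplicit false

namespace Cfsg.Agent.Lib.Helper78.NTO

open Cfsg.Agent.Lib.Helper15 Cfsg.Agent.Lib.Helper16.Zas

/-- An even permutation of three points with a fixed point is trivial. -/
theorem perm_three_eq_one {X : Type*} [Fintype X] [DecidableEq X] (hX : Fintype.card X = 3)
    (σ : Equiv.Perm X) (x : X) (hx : σ x = x) (hs : Equiv.Perm.sign σ = 1) : σ = 1 := by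
  by_contra hne
  obtain ⟨a, ha⟩ : ∃ a, σ a ≠ a := by
    by_contra h
    push Not at h
    exact hne (Equiv.ext h)
  have hax : a ≠ x := fun h => ha (h ▸ hx)
  have hbx : σ a ≠ x := fun h => hax (σ.injective (h.trans hx.symm))
  have huniv : ∀ c : X, c = x ∨ c = a ∨ c = σ a := by
    by_contra h
    push Not at h
    obtain ⟨c, hc1, hc2, hc3⟩ := h
    have h4 : ({c, x, a, σ a} : Finset X).card ≤ Fintype.card X := Finset.card_le_univ _
    rw [Finset.card_insert_of_notMem (by simp [hc1, hc2, hc3]),
      Finset.card_insert_of_notMem (by simp [hax.symm, hbx.symm]),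
      Finset.card_insert_of_notMem (by simp [Ne.symm ha]), Finset.card_singleton] at h4
    omega
  have hσb : σ (σ a) = a := by
    rcases huniv (σ (σ a)) with h | h | h
    · exact absurd (σ.injective (h.trans hx.symm)) hbx
    · exact h
    · exact absurd (σ.injective h) ha
  have hsw : σ = Equiv.swap a (σ a) := by
    ext c
    rcases huniv c with h | h | h
    · rw [h, hx, Equiv.swap_apply_of_ne_of_ne hax.symm hbx.symm]
    · rw [h, Equiv.swap_apply_left]
    · rw [h, hσb, Equiv.swap_apply_right]
  rw [hsw, Equiv.Perm.sign_swap (Ne.symm ha)] at hs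
  exact absurd hs (by decide)

theorem not_typeO {H : Type*} [Group H] [Finite H] {z : H} (hyp : Pl H z) (S : Set H)
    (hS : ∀ s ∈ S, s ^ 3 = 1) (hgen : Subgroup.closure (S ∪ {z}) = ⊤) (hcard : Nat.card H = 48)
    (hsz : ∀ y : H, y * y ≠ 1 → Nat.card (dcz y) = 4 ∨ Nat.card (dcz y) = 6 ∨ Nat.card (dcz y) = 8)
    (h8 : SC H 8 18 2) : False := by
  classical
  obtain ⟨h8c, h8n⟩ := h8
  have hne : ({y : H | y * y ≠ 1 ∧ Nat.card (dcz y) = 8} : Set H).Nonempty := by
    rw [← Set.ncard_pos (Set.toFinite _), h8c]; norm_num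
  obtain ⟨y, hy, hy8⟩ := hne
  have hN16 := h8n y hy hy8
  have hAN : dcz y ≤ Subgroup.normalizer ((dcz y : Subgroup H) : Set H) := Subgroup.le_normalizer
  -- an element of `dcz y` whose square is neither `1` nor `z`
  obtain ⟨w, hwA, hw1, hwz⟩ : ∃ w ∈ dcz y, w * w ≠ 1 ∧ w * w ≠ z := by
    by_contra hcon
    push Not at hcon
    have hyz : y * y = z := hcon y (self_mem_dcz y) hy
    have hsub : ((dcz y : Subgroup H) : Set H) ⊆ ↑({1, z, y, z * y} : Finset H) := by
      intro a ha
      have ha' : a * y = y * a := ha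
      simp only [Finset.coe_insert, Finset.coe_singleton, Set.mem_insert_iff,
        Set.mem_singleton_iff]
      by_cases haa : a * a = 1
      · rcases hyp.invol a haa with h | h
        · exact Or.inl h
        · exact Or.inr (Or.inl h)
      · have h1 : a * a = z := hcon a ha haa
        have h2 : a * y⁻¹ = y⁻¹ * a := by
          have : a * y⁻¹ = y⁻¹ * (y * a) * y⁻¹ := by group
          rw [this, ← ha']; group
        have h3 : (a * y⁻¹) * (a * y⁻¹) = 1 := by
          calc (a * y⁻¹) * (a * y⁻¹) = a * (y⁻¹ * a) * y⁻¹ := by group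
            _ = a * (a * y⁻¹) * y⁻¹ := by rw [h2]
            _ = (a * a) * (y * y)⁻¹ := by group
            _ = 1 := by rw [h1, hyz, mul_inv_cancel]
        rcases hyp.invol _ h3 with h | h
        · right; right; left
          exact mul_inv_eq_one.mp h
        · right; right; right
          exact mul_inv_eq_iff_eq_mul.mp h
    have hle := Set.ncard_le_ncard hsub (Finset.finite_toSet _)
    rw [Set.ncard_coe_finset] at hle
    have h4 : ({1, z, y, z * y} : Finset H).card ≤ 4 := Finset.card_le_four
    have h8 : Nat.card (dcz y) = ((dcz y : Subgroup H) : Set H).ncard := rfl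
    omega
  -- the normalizer has index three
  have hN0card : Nat.card (Subgroup.normalizer ((dcz y : Subgroup H) : Set H)) = 16 := by
    rw [hN16]
  have hidx : (Subgroup.normalizer ((dcz y : Subgroup H) : Set H)).index = 3 := by
    have := Subgroup.card_mul_index (Subgroup.normalizer ((dcz y : Subgroup H) : Set H))
    rw [hN0card, hcard] at this
    omega
  generalize hN0 : Subgroup.normalizer ((dcz y : Subgroup H) : Set H) = N0 at *
  have : Fintype (H ⧸ N0) := Fintype.ofFinite _
  have hX : Fintype.card (H ⧸ N0) = 3 := by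
    rw [← Nat.card_eq_fintype_card]; exact hidx
  let φ : H →* Equiv.Perm (H ⧸ N0) := MulAction.toPermHom H (H ⧸ N0)
  have hφ : ∀ n g : H, φ n (g : H ⧸ N0) = ((n * g : H) : H ⧸ N0) := fun n g => rfl
  let ψ : H →* ℤˣ := Equiv.Perm.sign.comp φ
  have hzN0 : z ∈ N0 := hAN (hyp.z_mem_dcz y)
  have hψ : ∀ g : H, ψ g = 1 := by
    have hle : Subgroup.closure (S ∪ {z}) ≤ ψ.ker := by
      rw [Subgroup.closure_le]
      rintro s (hs | hs)
      · rw [SetLike.mem_coe, MonoidHom.mem_ker]
        have h3 : ψ s ^ 3 = 1 := by rw [← map_pow, hS s hs, map_one]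
        rcases Int.units_eq_one_or (ψ s) with h | h
        · exact h
        · rw [h] at h3; exact absurd h3 (by decide)
      · rw [Set.mem_singleton_iff] at hs
        rw [hs, SetLike.mem_coe, MonoidHom.mem_ker]
        have h1 : φ z = 1 := by
          ext q
          induction q using QuotientGroup.induction_on with
          | H g =>
            rw [hφ, Equiv.Perm.one_apply, QuotientGroup.eq]
            have : (z * g)⁻¹ * g = z := by
              rw [hyp.z_comm g, mul_inv_rev, hyp.z_inv]; group
            rw [this]; exact hzN0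
        show Equiv.Perm.sign (φ z) = 1
        rw [h1, map_one]
    intro g
    have : g ∈ Subgroup.closure (S ∪ {z}) := by rw [hgen]; exact Subgroup.mem_top g
    exact MonoidHom.mem_ker.mp (hle this)
  have hnormal : ∀ n ∈ N0, ∀ g : H, g⁻¹ * n * g ∈ N0 := by
    intro n hn g
    have h1 : φ n⁻¹ = 1 := by
      apply perm_three_eq_one hX (φ n⁻¹) ((1 : H) : H ⧸ N0)
      · rw [hφ, QuotientGroup.eq]
        simpa using hn
      · exact hψ n⁻¹
    have h2 : φ n⁻¹ (g : H ⧸ N0) = (g : H ⧸ N0) := by rw [h1]; rfl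
    rw [hφ, QuotientGroup.eq] at h2
    have : (n⁻¹ * g)⁻¹ * g = g⁻¹ * n * g := by group
    rwa [this] at h2
  obtain ⟨g, hg⟩ : ∃ g : H, g ∉ N0 := by
    by_contra h
    push Not at h
    have : N0 = ⊤ := by ext x; simp [h x]
    rw [this, Subgroup.index_top] at hidx; omega
  have hdw : dcz w = dcz y := hyp.dcz_eq hy hwA hw1
  have hvN : g * w * g⁻¹ ∈ N0 := by
    have := hnormal w (hAN hwA) g⁻¹
    simpa using this
  have hvv : (g * w * g⁻¹) * (g * w * g⁻¹) = g * (w * w) * g⁻¹ := by group
  have hvv1 : (g * w * g⁻¹) * (g * w * g⁻¹) ≠ 1 := by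
    intro h
    apply hw1
    rw [hvv] at h
    have : w * w = g⁻¹ * (g * (w * w) * g⁻¹) * g := by group
    rw [this, h]; group
  have hvA : g * w * g⁻¹ ∉ dcz y := by
    intro hvA
    apply hg
    have h1 : dcz (g * w * g⁻¹) = dcz y := hyp.dcz_eq hy hvA hvv1
    have h2 : dcz (g * w * g⁻¹) = (dcz w).map (MulAut.conj g).toMonoidHom := by
      have := Pl.dcz_conj g⁻¹ w
      simpa using this
    rw [hdw, h1] at h2
    rw [← hN0, Subgroup.mem_normalizer_iff]
    intro h
    constructor
    · intro hh
      rw [h2]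
      exact ⟨h, hh, rfl⟩
    · intro hh
      rw [h2] at hh
      obtain ⟨a, ha, hah⟩ := hh
      have : a = h := by
        have e : g * a * g⁻¹ = g * h * g⁻¹ := hah
        have : a = g⁻¹ * (g * a * g⁻¹) * g := by group
        rw [this, e]; group
      rw [← this]; exact ha
  have hz' : (g * w * g⁻¹) * (g * w * g⁻¹) = z := by
    rw [← hN0] at hvN
    exact hyp.norm_sq hy hvN hvA
  apply hwz
  rw [hvv] at hz'
  have : w * w = g⁻¹ * (g * (w * w) * g⁻¹) * g := by group
  rw [this, hz', mul_assoc, hyp.z_comm g, ← mul_assoc, inv_mul_cancel, one_mul]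

end Cfsg.Agent.Lib.Helper78.NTO
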