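import Mathlib
import Cfsg.Agent.Lib.Helper18.SLMDefs

/-! Project SLM (helper18, S2332), piece TCOUNT: the number of non-identity transvections. -/

set_option autoImplicit false

namespace Cfsg.Agent.Lib.Helper18.SLM

open Matrix

universe u

variable {F : Type u} [Field F] [Fintype F]

private theorem tcount_ker_card {n : ℕ} (a : Fin (n + 1) → F) (ha : a ≠ 0) :
    Nat.card {φ : Fin (n + 1) → F // φ ⬝ᵥ a = 0} = Fintype.card F ^ n := by
  classical
  let L : (Fin (n + 1) → F) →+ F :=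
    { toFun := fun φ => φ ⬝ᵥ a
      map_zero' := by simp
      map_add' := fun x y => by simp [add_dotProduct] }
  have hsurj : Function.Surjective L := by
    obtain ⟨i, hi⟩ : ∃ i, a i ≠ 0 := by
      by_contra h
      push Not at h
      exact ha (funext h)
    intro c
    refine ⟨Pi.single i (c / a i), ?_⟩
    show Pi.single i (c / a i) ⬝ᵥ a = c
    rw [single_dotProduct]
    field_simp
  have h1 := AddSubgroup.card_eq_card_quotient_mul_card_addSubgroup L.ker
  have h2 : Nat.card ((Fin (n + 1) → F) ⧸ L.ker) = Fintype.card F := by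
    rw [Nat.card_congr (QuotientAddGroup.quotientKerEquivOfSurjective L hsurj).toEquiv,
      Nat.card_eq_fintype_card]
  have h3 : Nat.card (Fin (n + 1) → F) = Fintype.card F ^ (n + 1) := by
    rw [Nat.card_eq_fintype_card, Fintype.card_fun, Fintype.card_fin]
  have h4 : Nat.card {φ : Fin (n + 1) → F // φ ⬝ᵥ a = 0} = Nat.card L.ker := by
    apply Nat.card_congr
    exact Equiv.subtypeEquivRight (fun φ => Iff.rfl)
  rw [h4]
  rw [h2, h3, pow_succ] at h1
  have hq : 0 < Fintype.card F := Fintype.card_pos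
  exact Nat.eq_of_mul_eq_mul_left hq (by linarith)

private theorem tcount_fibre_card {n : ℕ} (a : Fin (n + 1) → F) (ha : a ≠ 0) :
    Nat.card {φ : Fin (n + 1) → F // φ ≠ 0 ∧ φ ⬝ᵥ a = 0} = Fintype.card F ^ n - 1 := by
  classical
  have h0 : (0 : Fin (n + 1) → F) ∈ {φ : Fin (n + 1) → F | φ ⬝ᵥ a = 0} := by simp
  have h1 := Set.ncard_sdiff_singleton_of_mem h0
  have h2 : {φ : Fin (n + 1) → F | φ ⬝ᵥ a = 0}.ncard = Fintype.card F ^ n := by
    rw [← Nat.card_coe_set_eq]
    exact tcount_ker_card a ha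
  rw [h2] at h1
  rw [← h1, ← Nat.card_coe_set_eq]
  apply Nat.card_congr
  exact Equiv.subtypeEquivRight (fun φ => by
    simp only [Set.mem_diff, Set.mem_setOf_eq, Set.mem_singleton_iff]
    tauto)

private theorem tcount_nz_card {n : ℕ} :
    Nat.card {a : Fin n → F // a ≠ 0} = Fintype.card F ^ n - 1 := by
  classical
  have h1 := Set.ncard_sdiff_singleton_of_mem (Set.mem_univ (0 : Fin n → F))
  rw [Set.ncard_univ, Nat.card_eq_fintype_card, Fintype.card_fun, Fintype.card_fin] at h1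
  rw [← h1, ← Nat.card_coe_set_eq]
  apply Nat.card_congr
  exact Equiv.subtypeEquivRight (fun φ => by simp)

private theorem tcount_pairs_card {n : ℕ} :
    Nat.card {x : (Fin (n + 1) → F) × (Fin (n + 1) → F) // x.1 ≠ 0 ∧ x.2 ≠ 0 ∧ x.2 ⬝ᵥ x.1 = 0} =
      (Fintype.card F ^ (n + 1) - 1) * (Fintype.card F ^ n - 1) := by
  classical
  have e : {x : (Fin (n + 1) → F) × (Fin (n + 1) → F) // x.1 ≠ 0 ∧ x.2 ≠ 0 ∧ x.2 ⬝ᵥ x.1 = 0} ≃
      Σ a : {a : Fin (n + 1) → F // a ≠ 0}, {φ : Fin (n + 1) → F // φ ≠ 0 ∧ φ ⬝ᵥ a.1 = 0} :=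
    { toFun := fun x => ⟨⟨x.1.1, x.2.1⟩, ⟨x.1.2, x.2.2⟩⟩
      invFun := fun y => ⟨(y.1.1, y.2.1), y.1.2, y.2.2⟩
      left_inv := fun x => rfl
      right_inv := fun y => rfl }
  rw [Nat.card_congr e, Nat.card_sigma]
  rw [Finset.sum_congr rfl (fun a _ => tcount_fibre_card a.1 a.2)]
  rw [Finset.sum_const, Finset.card_univ, smul_eq_mul, ← Nat.card_eq_fintype_card, tcount_nz_card]

private theorem tcount_det {n : ℕ} (a φ : Fin n → F) (h : φ ⬝ᵥ a = 0) :
    (1 + vecMulVec a φ : Matrix (Fin n) (Fin n) F).det = 1 := by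
  rw [vecMulVec_eq Unit, det_one_add_replicateCol_mul_replicateRow, h, add_zero]

private theorem tcount_ne {n : ℕ} (a φ : Fin n → F) (ha : a ≠ 0) (hφ : φ ≠ 0) :
    vecMulVec a φ ≠ 0 := by
  obtain ⟨i, hi⟩ : ∃ i, a i ≠ 0 := by
    by_contra h
    push Not at h
    exact ha (funext h)
  obtain ⟨j, hj⟩ : ∃ j, φ j ≠ 0 := by
    by_contra h
    push Not at h
    exact hφ (funext h)
  intro h0
  have := congrFun (congrFun h0 i) j
  rw [vecMulVec_apply] at this
  exact mul_ne_zero hi hj this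

-- piece TCOUNT
theorem tv_count {k : ℕ} :
    Nat.card {g : Matrix.SpecialLinearGroup (Fin (k + 2)) F // IsTv g ∧ g ≠ 1} *
        (Fintype.card F - 1) =
      (Fintype.card F ^ (k + 2) - 1) * (Fintype.card F ^ (k + 1) - 1) := by
  classical
  rw [← tcount_pairs_card (F := F) (n := k + 1)]
  rw [← Fintype.card_units, ← Nat.card_eq_fintype_card (α := Fˣ), ← Nat.card_prod]
  -- representatives
  have hspec : ∀ g : {g : Matrix.SpecialLinearGroup (Fin (k + 2)) F // IsTv g ∧ g ≠ 1},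
      ∃ p : (Fin (k + 2) → F) × (Fin (k + 2) → F), p.2 ⬝ᵥ p.1 = 0 ∧
        (g.1 : Matrix (Fin (k + 2)) (Fin (k + 2)) F) = 1 + vecMulVec p.1 p.2 := by
    rintro ⟨g, ⟨a, φ, h1, h2⟩, -⟩
    exact ⟨(a, φ), h1, h2⟩
  choose r hr1 hr2 using hspec
  have hrne : ∀ g, (r g).1 ≠ 0 ∧ (r g).2 ≠ 0 := by
    intro g
    have hg : vecMulVec (r g).1 (r g).2 ≠ 0 := by
      intro h0
      apply g.2.2
      apply Subtype.ext
      rw [hr2 g, h0, add_zero]
      rfl
    constructor
    · intro h0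
      apply hg
      rw [h0]
      ext i j
      simp [vecMulVec_apply]
    · intro h0
      apply hg
      rw [h0]
      ext i j
      simp [vecMulVec_apply]
  let Ψ : {g : Matrix.SpecialLinearGroup (Fin (k + 2)) F // IsTv g ∧ g ≠ 1} × Fˣ →
      {x : (Fin (k + 2) → F) × (Fin (k + 2) → F) // x.1 ≠ 0 ∧ x.2 ≠ 0 ∧ x.2 ⬝ᵥ x.1 = 0} :=
    fun y => ⟨((y.2 : F) • (r y.1).1, ((y.2⁻¹ : Fˣ) : F) • (r y.1).2), by
      refine ⟨?_, ?_, ?_⟩
      · exact smul_ne_zero (Units.ne_zero _) (hrne y.1).1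
      · exact smul_ne_zero (Units.ne_zero _) (hrne y.1).2
      · show (((y.2⁻¹ : Fˣ) : F) • (r y.1).2) ⬝ᵥ ((y.2 : F) • (r y.1).1) = 0
        rw [smul_dotProduct, dotProduct_smul, hr1]
        simp⟩
  have hΨval : ∀ y, vecMulVec (Ψ y).1.1 (Ψ y).1.2 = vecMulVec (r y.1).1 (r y.1).2 := by
    intro y
    ext i j
    show ((y.2 : F) • (r y.1).1) i * (((y.2⁻¹ : Fˣ) : F) • (r y.1).2) j = _
    rw [vecMulVec_apply, Pi.smul_apply, Pi.smul_apply, smul_eq_mul, smul_eq_mul]
    have : (y.2 : F) * ((y.2⁻¹ : Fˣ) : F) = 1 := by simp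
    calc (y.2 : F) * (r y.1).1 i * (((y.2⁻¹ : Fˣ) : F) * (r y.1).2 j)
        = ((y.2 : F) * ((y.2⁻¹ : Fˣ) : F)) * ((r y.1).1 i * (r y.1).2 j) := by ring
      _ = (r y.1).1 i * (r y.1).2 j := by rw [this, one_mul]
  have hbij : Function.Bijective Ψ := by
    constructor
    · rintro ⟨g, c⟩ ⟨g', c'⟩ hyy
      have hg : g = g' := by
        apply Subtype.ext
        apply Subtype.ext
        rw [hr2 g, hr2 g', ← hΨval (g, c), ← hΨval (g', c'), hyy]
      subst hg
      have h1 : (c : F) • (r g).1 = (c' : F) • (r g).1 := congrArg (fun t => t.1.1) hyy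
      obtain ⟨i, hi⟩ : ∃ i, (r g).1 i ≠ 0 := by
        by_contra h
        push Not at h
        exact (hrne g).1 (funext h)
      have h2 := congrFun h1 i
      rw [Pi.smul_apply, Pi.smul_apply, smul_eq_mul, smul_eq_mul] at h2
      have h3 : (c : F) = (c' : F) := mul_right_cancel₀ hi h2
      rw [Units.ext h3]
    · rintro ⟨⟨a, φ⟩, ha, hφ, hdot⟩
      have hne := tcount_ne a φ ha hφ
      let g : {g : Matrix.SpecialLinearGroup (Fin (k + 2)) F // IsTv g ∧ g ≠ 1} :=
        ⟨⟨1 + vecMulVec a φ, tcount_det a φ hdot⟩, ⟨a, φ, hdot, rfl⟩, by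
          intro h1
          apply hne
          have := congrArg (fun t : Matrix.SpecialLinearGroup (Fin (k + 2)) F =>
            (t : Matrix (Fin (k + 2)) (Fin (k + 2)) F)) h1
          simpa using this⟩
      have hgm : vecMulVec (r g).1 (r g).2 = vecMulVec a φ := by
        have := hr2 g
        exact (add_left_cancel this).symm
      have hent : ∀ i j, (r g).1 i * (r g).2 j = a i * φ j := by
        intro i j
        have := congrFun (congrFun hgm i) j
        rwa [vecMulVec_apply, vecMulVec_apply] at this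
      obtain ⟨i₀, hi₀⟩ : ∃ i, a i ≠ 0 := by
        by_contra h
        push Not at h
        exact ha (funext h)
      obtain ⟨j₀, hj₀⟩ : ∃ j, φ j ≠ 0 := by
        by_contra h
        push Not at h
        exact hφ (funext h)
      have hne0 : (r g).1 i₀ * (r g).2 j₀ ≠ 0 := by
        rw [hent]
        exact mul_ne_zero hi₀ hj₀
      have hr1' : (r g).1 i₀ ≠ 0 := left_ne_zero_of_mul hne0
      have hr2' : (r g).2 j₀ ≠ 0 := right_ne_zero_of_mul hne0
      have hc : (r g).2 j₀ / φ j₀ ≠ 0 := div_ne_zero hr2' hj₀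
      refine ⟨(g, Units.mk0 _ hc), ?_⟩
      apply Subtype.ext
      show (((Units.mk0 _ hc : Fˣ) : F) • (r g).1, (((Units.mk0 _ hc)⁻¹ : Fˣ) : F) • (r g).2) = (a, φ)
      have ha' : ∀ i, a i = ((r g).2 j₀ / φ j₀) * (r g).1 i := by
        intro i
        have := hent i j₀
        field_simp
        linear_combination -this
      refine Prod.ext ?_ ?_
      · funext i
        show ((Units.mk0 _ hc : Fˣ) : F) • (r g).1 i = a i
        rw [Units.val_mk0, smul_eq_mul, ha' i]
      · funext j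
        show (((Units.mk0 _ hc)⁻¹ : Fˣ) : F) • (r g).2 j = φ j
        rw [Units.val_inv_eq_inv_val, Units.val_mk0, smul_eq_mul]
        have h1 := hent i₀ j
        rw [ha' i₀] at h1
        have h2 : (r g).2 j = ((r g).2 j₀ / φ j₀) * φ j := by
          have h3 : (r g).1 i₀ * (r g).2 j = (r g).1 i₀ * (((r g).2 j₀ / φ j₀) * φ j) := by
            rw [h1]; ring
          exact mul_left_cancel₀ hr1' h3
        rw [h2, ← mul_assoc, inv_mul_cancel₀ hc, one_mul]
  exact (Nat.card_congr (Equiv.ofBijective Ψ hbij))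

end Cfsg.Agent.Lib.Helper18.SLM
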