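import Mathlib
import Cfsg.Prelude.Def_Classical
import Cfsg.Agent.Lib.Helper18.UEDefs
import Cfsg.Agent.Lib.Helper18.UODefs

set_option autoImplicit false

namespace Cfsg.Agent.Lib.Helper18.UE

open Matrix

universe u

variable {F : Type u} [Field F] {m : ℕ}

-- piece BETA
theorem beta_skew (hm : 1 ≤ m) (σ : F →+* F) (hσ : ∀ x, σ (σ x) = x) (β : F)
    (P : Matrix (Fin (m + m)) (Fin m ⊕ Fin m) F) (h3 : Pᵀ * P.map σ = Jb m β) :
    σ β = -β := by
  have hentry : ∀ i j, (Pᵀ * P.map σ) i j = ∑ k, P k i * σ (P k j) := by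
    intro i j
    simp [Matrix.mul_apply, Matrix.transpose_apply, Matrix.map_apply]
  have hsym : ∀ i j, σ ((Pᵀ * P.map σ) j i) = (Pᵀ * P.map σ) i j := by
    intro i j
    rw [hentry, hentry, map_sum]
    refine Finset.sum_congr rfl (fun k _ => ?_)
    rw [map_mul, hσ, mul_comm]
  have h0 : (0 : ℕ) < m := hm
  have key := hsym (Sum.inl ⟨0, h0⟩) (Sum.inr ⟨0, h0⟩)
  rw [h3] at key
  have e1 : Jb m β (Sum.inl ⟨0, h0⟩) (Sum.inr ⟨0, h0⟩) = β := by
    simp [Jb, Matrix.fromBlocks_apply₁₂]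
  have e2 : Jb m β (Sum.inr ⟨0, h0⟩) (Sum.inl ⟨0, h0⟩) = -β := by
    simp [Jb, Matrix.fromBlocks_apply₂₁]
  rw [e1, e2, map_neg] at key
  rw [eq_neg_iff_add_eq_zero, ← neg_eq_iff_add_eq_zero]
  exact key

end Cfsg.Agent.Lib.Helper18.UE
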