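import Cfsg.Agent.Lib.Helper3.BG12Defs
import Cfsg.Agent.Lib.Helper32.BG10Main

/-!
# B&G Section 12, piece P16D: `M = M_β N_M(S)` for a Sylow `q`-subgroup `S` of `M`, `q ∈ σ(M)`
-/

set_option autoImplicit false

open Cfsg Cfsg.Agent.Lib.Helper32 Cfsg.Agent.Lib.Helper32.BG10 Cfsg.Agent.Lib.Helper3.BG12

namespace Cfsg.Agent.Lib.Helper78.BG12

universe u

variable {G : Type u} [Group G] [Finite G]

omit [Finite G] in
theorem card_mul_relIndex' {T N : Subgroup G} (h : T ≤ N) :
    Nat.card T * T.relIndex N = Nat.card N := by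
  rw [← Subgroup.relIndex_bot_left, ← Subgroup.relIndex_bot_left (H := N)]
  exact Subgroup.relIndex_mul_relIndex ⊥ T N bot_le h

/-- Frattini argument -/
theorem frattini_sylSet {q : ℕ} [Fact q.Prime] {T M S' : Subgroup G} (hTM : T ≤ M)
    (hMT : M ≤ Subgroup.normalizer (T : Set G)) (hS' : S' ∈ sylSet q T) :
    M ≤ T ⊔ (M ⊓ Subgroup.normalizer (S' : Set G)) := by
  intro m hm
  have h1 : cj m S' ∈ sylSet q T := cj_mem_sylSet (hMT hm) hS'
  obtain ⟨t, ht, htS⟩ := sylSet_conj h1 hS'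
  have h2 : cj (t * m) S' = S' := by rw [cj_mul, htS]
  have h3 : t * m ∈ M ⊓ Subgroup.normalizer (S' : Set G) :=
    ⟨M.mul_mem (hTM ht) hm, cj_eq_self_iff.mp h2⟩
  have h4 : m = t⁻¹ * (t * m) := by group
  rw [h4]
  exact Subgroup.mul_mem _ (Subgroup.mem_sup_left (T.inv_mem ht)) (Subgroup.mem_sup_right h3)

/-- a Sylow subgroup of `M` inside `T ≤ M` is a Sylow subgroup of `T` -/
theorem sylSet_of_le {q : ℕ} [hq : Fact q.Prime] {M T S : Subgroup G} (hS : S ∈ sylSet q M)
    (hST : S ≤ T) (hTM : T ≤ M) : S ∈ sylSet q T := by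
  refine ⟨hST, ?_⟩
  have h1 : q ^ (Nat.card M).factorization q ∣ Nat.card T := by
    rw [← hS.2]
    exact Subgroup.card_dvd_of_le hST
  have h2 : (Nat.card M).factorization q ≤ (Nat.card T).factorization q :=
    (hq.out.pow_dvd_iff_le_factorization Nat.card_pos.ne').mp h1
  have h3 : (Nat.card T).factorization q ≤ (Nat.card M).factorization q :=
    (Nat.factorization_le_iff_dvd Nat.card_pos.ne' Nat.card_pos.ne').mpr
      (Subgroup.card_dvd_of_le hTM) q
  rw [hS.2, le_antisymm h2 h3]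

/-- a Sylow subgroup of `T` is a Sylow subgroup of `N ≥ T` when `q ∤ |N : T|` -/
theorem sylSet_of_not_dvd {q : ℕ} [Fact q.Prime] {T N S₀ : Subgroup G} (hTN : T ≤ N)
    (hnd : ¬ q ∣ T.relIndex N) (hS₀ : S₀ ∈ sylSet q T) : S₀ ∈ sylSet q N := by
  refine ⟨hS₀.1.trans hTN, ?_⟩
  have h1 := card_mul_relIndex' hTN
  have h0 : T.relIndex N ≠ 0 := by
    intro h
    rw [h, mul_zero] at h1
    exact Nat.card_pos.ne' h1.symm
  have h2 : (Nat.card N).factorization q = (Nat.card T).factorization q := by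
    rw [← h1, Nat.factorization_mul Nat.card_pos.ne' h0, Finsupp.add_apply,
      Nat.factorization_eq_zero_of_not_dvd hnd, add_zero]
  rw [hS₀.2, h2]

theorem le_betaCore_sup_normalizer (hG : IsMinSimpleOddOrder G) (h14 : H14 G) {M : Subgroup G}
    (hM : IsCoatom M) {q : ℕ} [Fact q.Prime] (hq : q ∈ sigma M) {S : Subgroup G}
    (hS : S ∈ sylSet q M) :
    M ≤ piCoreOf (beta M) M ⊔ (M ⊓ Subgroup.normalizer (S : Set G)) := by
  classical
  have hqp : q.Prime := Fact.out
  have hUT := ut_of hG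
  have hB_def : piCoreOf (beta M) M = (piCore (beta M) ↥M).map M.subtype := rfl
  have hN_def : sigmaCore M = (piCore (sigma M) ↥M).map M.subtype := rfl
  have hBM : piCoreOf (beta M) M ≤ M := by
    rw [hB_def]
    exact Subgroup.map_subtype_le _
  have hMB : M ≤ Subgroup.normalizer ((piCoreOf (beta M) M : Subgroup G) : Set G) :=
    le_normalizer_map_subtype M (piCore (beta M) ↥M)
  obtain ⟨hBhall, -, -, ⟨H, hHhall, hHnil⟩, -⟩ := h14 M hM
  have : Group.IsNilpotent ↥H := hHnil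
  by_cases hqβ : q ∈ beta M
  · -- `q ∈ β(M)`: `S ≤ M_β`
    obtain ⟨S', hS'⟩ := sylSet_nonempty q (piCoreOf (beta M) M)
    have hS'M : S' ∈ sylSet q M := sylSet_of_not_dvd hBM (hBhall.2.2 q hqp hqβ) hS'
    obtain ⟨n, hn, hnS⟩ := sylSet_conj hS'M hS
    have hSB : S ∈ sylSet q (piCoreOf (beta M) M) := by
      rw [← hnS]
      exact cj_mem_sylSet (hMB hn) hS'
    exact frattini_sylSet hBM hMB hSB
  · -- `q ∉ β(M)`
    have hβσ : beta M ⊆ sigma M := fun p hp => alpha_sub_sigma hG hUT hM hp.1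
    have hNM : sigmaCore M ≤ M := by
      rw [hN_def]
      exact Subgroup.map_subtype_le _
    have hMN : M ≤ Subgroup.normalizer ((sigmaCore M : Subgroup G) : Set G) :=
      le_normalizer_map_subtype M (piCore (sigma M) ↥M)
    have hBN : piCoreOf (beta M) M ≤ sigmaCore M := by
      rw [hB_def, hN_def]
      refine Subgroup.map_mono (le_sSup ⟨piCore_normal _ _, fun p hp hd => ?_⟩)
      exact hβσ (Cfsg.Agent.Lib.Helper66.isPi_piCore (G := ↥M) (beta M) p hp hd)
    have hSN : S ≤ sigmaCore M := by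
      obtain ⟨S₁, hS₁⟩ := exists_sylow_of_mem_sylSet hS
      rw [← hS₁, hN_def]
      exact Subgroup.map_mono
        (sylow_le_sigmaCore hG hUT (h2_of hG) (sigDer_of hG) hM q hq S₁)
    have hHN : H ≤ sigmaCore M := hHhall.1
    -- cardinalities
    have hab := card_mul_relIndex' hBN
    have hcd := card_mul_relIndex' hHN
    have hBpi : ∀ p : ℕ, p.Prime → p ∣ Nat.card ↥(piCoreOf (beta M) M) → p ∈ beta M :=
      hBhall.2.1
    have hbnot : ∀ p : ℕ, p.Prime → p ∈ beta M →
        ¬ p ∣ (piCoreOf (beta M) M).relIndex (sigmaCore M) := by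
      intro p hp hpβ hdvd
      apply hBhall.2.2 p hp hpβ
      rw [← Subgroup.relIndex_mul_relIndex _ _ _ hBN hNM]
      exact Dvd.dvd.mul_right hdvd _
    have hHpi : ∀ p : ℕ, p.Prime → p ∣ Nat.card ↥H → p ∉ beta M := fun p hp hd =>
      (hHhall.2.1 p hp hd).2
    have hdnot : ∀ p : ℕ, p.Prime → p ∉ beta M → ¬ p ∣ H.relIndex (sigmaCore M) :=
      fun p hp hpβ => hHhall.2.2 p hp ⟨hp, hpβ⟩
    have hcop_ac : (Nat.card ↥(piCoreOf (beta M) M)).Coprime (Nat.card ↥H) := by
      by_contra hcon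
      obtain ⟨p, hp, h1, h2⟩ := Nat.Prime.not_coprime_iff_dvd.mp hcon
      exact hHpi p hp h2 (hBpi p hp h1)
    have hcop_db : (H.relIndex (sigmaCore M)).Coprime
        ((piCoreOf (beta M) M).relIndex (sigmaCore M)) := by
      by_contra hcon
      obtain ⟨p, hp, h1, h2⟩ := Nat.Prime.not_coprime_iff_dvd.mp hcon
      by_cases hpβ : p ∈ beta M
      · exact hbnot p hp hpβ h2
      · exact hdnot p hp hpβ h1
    have had : Nat.card ↥(piCoreOf (beta M) M) = H.relIndex (sigmaCore M) := by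
      apply Nat.dvd_antisymm
      · apply hcop_ac.dvd_of_dvd_mul_left
        rw [hcd, ← hab]
        exact Dvd.intro _ rfl
      · apply hcop_db.dvd_of_dvd_mul_right
        rw [hab, ← hcd]
        exact Dvd.intro_left _ rfl
    have hprod : Nat.card ↥(piCoreOf (beta M) M) * Nat.card ↥H = Nat.card ↥(sigmaCore M) := by
      rw [← hcd, had, mul_comm]
    -- every element of `M_σ` is a product `b * h`
    have hdecomp : ∀ n ∈ sigmaCore M, ∃ b ∈ piCoreOf (beta M) M, ∃ h ∈ H, n = b * h := by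
      have hc1 : Nat.card ↥((piCoreOf (beta M) M).subgroupOf (sigmaCore M)) =
          Nat.card ↥(piCoreOf (beta M) M) :=
        Nat.card_congr (Subgroup.subgroupOfEquivOfLe hBN).toEquiv
      have hc2 : Nat.card ↥(H.subgroupOf (sigmaCore M)) = Nat.card ↥H :=
        Nat.card_congr (Subgroup.subgroupOfEquivOfLe hHN).toEquiv
      have hcompl : Subgroup.IsComplement' ((piCoreOf (beta M) M).subgroupOf (sigmaCore M))
          (H.subgroupOf (sigmaCore M)) := by
        apply Subgroup.isComplement'_of_coprime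
        · rw [hc1, hc2]
          exact hprod
        · rw [hc1, hc2]
          exact hcop_ac
      intro n hn
      obtain ⟨⟨b, h⟩, hbh⟩ := hcompl.2 ⟨n, hn⟩
      refine ⟨((b : ↥(sigmaCore M)) : G), Subgroup.mem_subgroupOf.mp b.2,
        ((h : ↥(sigmaCore M)) : G), Subgroup.mem_subgroupOf.mp h.2, ?_⟩
      have h5 := congrArg Subtype.val hbh
      exact h5.symm
    -- the Sylow `q`-subgroup of `H`
    obtain ⟨S₀, hS₀⟩ := sylSet_nonempty q H
    have hS₀N : S₀ ∈ sylSet q (sigmaCore M) := sylSet_of_not_dvd hHN (hdnot q hqp hqβ) hS₀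
    have hHS₀ : H ≤ Subgroup.normalizer (S₀ : Set G) := by
      obtain ⟨P₀, hP₀⟩ := exists_sylow_of_mem_sylSet hS₀
      have hP₀n : (P₀ : Subgroup ↥H).Normal := inferInstance
      rw [← hP₀]
      exact le_normalizer_map_subtype H (P₀ : Subgroup ↥H)
    have key : ∀ R ∈ sylSet q (sigmaCore M), ∃ b ∈ piCoreOf (beta M) M, cj b S₀ = R := by
      intro R hR
      obtain ⟨n, hn, hnR⟩ := sylSet_conj hS₀N hR
      obtain ⟨b, hb, h, hh, rfl⟩ := hdecomp n hn
      refine ⟨b, hb, ?_⟩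
      rw [← hnR, cj_mul, cj_eq_self_iff.mpr (hHS₀ hh)]
    have hTM : piCoreOf (beta M) M ⊔ S₀ ≤ M := sup_le hBM ((hS₀.1.trans hHN).trans hNM)
    have hcjT : ∀ b ∈ piCoreOf (beta M) M, cj b S₀ ≤ piCoreOf (beta M) M ⊔ S₀ := by
      intro b hb x hx
      rw [mem_cj] at hx
      have h1 : x = b * (b⁻¹ * x * b) * b⁻¹ := by group
      rw [h1]
      exact Subgroup.mul_mem _ (Subgroup.mul_mem _ (Subgroup.mem_sup_left hb)
        (Subgroup.mem_sup_right hx)) (Subgroup.mem_sup_left (Subgroup.inv_mem _ hb))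
    have hMT : M ≤ Subgroup.normalizer ((piCoreOf (beta M) M ⊔ S₀ : Subgroup G) : Set G) := by
      intro m hm
      rw [← cj_eq_self_iff]
      refine Subgroup.eq_of_le_of_card_ge ?_ (le_of_eq (card_cj m _).symm)
      have h1 : cj m (piCoreOf (beta M) M ⊔ S₀) = cj m (piCoreOf (beta M) M) ⊔ cj m S₀ :=
        Subgroup.map_sup _ _ _
      rw [h1, cj_eq_self_iff.mpr (hMB hm)]
      obtain ⟨b, hb, hbS⟩ := key (cj m S₀) (cj_mem_sylSet (hMN hm) hS₀N)
      rw [← hbS]
      exact sup_le le_sup_left (hcjT b hb)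
    have hSN' : S ∈ sylSet q (sigmaCore M) := sylSet_of_le hS hSN hNM
    obtain ⟨b', hb', hbS⟩ := key S hSN'
    have hST : S ≤ piCoreOf (beta M) M ⊔ S₀ := by
      rw [← hbS]
      exact hcjT b' hb'
    have hS_T : S ∈ sylSet q (piCoreOf (beta M) M ⊔ S₀) := sylSet_of_le hS hST hTM
    have hF := frattini_sylSet hTM hMT hS_T
    have hSle : S ≤ M ⊓ Subgroup.normalizer (S : Set G) := le_inf hS.1 Subgroup.le_normalizer
    have hT_le : piCoreOf (beta M) M ⊔ S₀ ≤
        piCoreOf (beta M) M ⊔ (M ⊓ Subgroup.normalizer (S : Set G)) := by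
      refine sup_le le_sup_left ?_
      intro x hx
      have h1 : b' * x * b'⁻¹ ∈ S := by
        rw [← hbS, mem_cj]
        have h2 : b'⁻¹ * (b' * x * b'⁻¹) * b' = x := by group
        rw [h2]
        exact hx
      have h3 : x = b'⁻¹ * (b' * x * b'⁻¹) * b' := by group
      rw [h3]
      exact Subgroup.mul_mem _ (Subgroup.mul_mem _
        (Subgroup.mem_sup_left (Subgroup.inv_mem _ hb'))
        (Subgroup.mem_sup_right (hSle h1))) (Subgroup.mem_sup_left hb')
    exact hF.trans (sup_le hT_le le_sup_right)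

end Cfsg.Agent.Lib.Helper78.BG12
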