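import Cfsg.Prelude.Def_JComponents
import Mathlib

set_option autoImplicit false

namespace Cfsg.Agent.Lib.Helper78.Jc

/-- `A` is an elementary abelian 2-subgroup of the subgroup `S` of largest possible order
(everything inside the ambient group `G`). -/
def IsMaxEA {G : Type*} [Group G] (S A : Subgroup G) : Prop :=
  A ≤ S ∧ (∀ a ∈ A, ∀ b ∈ A, a * b = b * a) ∧ (∀ a ∈ A, a * a = 1) ∧
    ∀ B : Subgroup G, B ≤ S → (∀ a ∈ B, ∀ b ∈ B, a * b = b * a) → (∀ a ∈ B, a * a = 1) →
      Nat.card B ≤ Nat.card A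

end Cfsg.Agent.Lib.Helper78.Jc
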