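import Cfsg.Agent.Lib.Helper47.OmcDefs
import Cfsg.Agent.Lib.Helper44.InvOrth
import Cfsg.Agent.Lib.Helper44.OrthForms
import Cfsg.Agent.Lib.Helper51.HypPairs

/-!
# S2683-S2685 piece CONJALT (helper78, for helper47)

An alternating involution of `O⁺_{2m}(q)`, `q` even, has even rank `s ≤ m` and is conjugate, by an
element of the orthogonal group, to every alternating involution matrix of the same rank.
-/

set_option autoImplicit false

namespace Cfsg.Agent.Lib.Helper78.Omc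

open Cfsg.Agent.Lib.Helper47 Matrix

variable {F : Type*} [Field F]

/-- The statement for the bundled quadratic form `QPlus m F`. -/
theorem alt_conj_std_aux [Fintype F] [CharP F 2] (m s : ℕ) :
    ∀ (x : ↥(Cfsg.isometryGroup F ⇑(Cfsg.Agent.Lib.Helper51.QPlus m F))), x ^ 2 = 1 →
    (((x : Matrix.GeneralLinearGroup (Fin m ⊕ Fin m) F) :
      Matrix (Fin m ⊕ Fin m) (Fin m ⊕ Fin m) F) - 1).rank = s →
    (∀ v, (⇑(Cfsg.Agent.Lib.Helper51.QPlus m F))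
      ((((x : Matrix.GeneralLinearGroup (Fin m ⊕ Fin m) F) :
        Matrix (Fin m ⊕ Fin m) (Fin m ⊕ Fin m) F) - 1) *ᵥ v) = 0) →
    Even s ∧ s ≤ m ∧ ∀ M : Matrix (Fin m ⊕ Fin m) (Fin m ⊕ Fin m) F,
      (∀ v, (⇑(Cfsg.Agent.Lib.Helper51.QPlus m F)) (M *ᵥ v)
        = (⇑(Cfsg.Agent.Lib.Helper51.QPlus m F)) v) → M * M = 1 →
      (M - 1).rank = s → (∀ v, (⇑(Cfsg.Agent.Lib.Helper51.QPlus m F)) ((M - 1) *ᵥ v) = 0) →
      ∃ P : Matrix (Fin m ⊕ Fin m) (Fin m ⊕ Fin m) F,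
        (∀ v, (⇑(Cfsg.Agent.Lib.Helper51.QPlus m F)) (P *ᵥ v)
          = (⇑(Cfsg.Agent.Lib.Helper51.QPlus m F)) v) ∧ IsUnit P.det ∧
        P * ((x : Matrix.GeneralLinearGroup (Fin m ⊕ Fin m) F) :
          Matrix (Fin m ⊕ Fin m) (Fin m ⊕ Fin m) F) = M * P := by
  intro x hx hs halt
  have h2 : (2 : F) = 0 := CharTwo.two_eq_zero
  have hxx : x * x = 1 := by rw [← pow_two]; exact hx
  have hsub : ∀ (A : Matrix (Fin m ⊕ Fin m) (Fin m ⊕ Fin m) F) (v : Fin m ⊕ Fin m → F),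
      (A - 1) *ᵥ v = v + A *ᵥ v := by
    intro A v
    rw [Matrix.sub_mulVec, Matrix.one_mulVec]
    funext i
    simp only [Pi.sub_apply, Pi.add_apply]
    rw [sub_eq_add_neg, CharTwo.neg_eq, add_comm]
  have haltx : Cfsg.Agent.Lib.Helper44.IsAltInv (Cfsg.Agent.Lib.Helper51.QPlus m F) x := by
    intro v
    have h := halt v
    rw [hsub] at h
    exact h
  have hev := Cfsg.Agent.Lib.Helper44.even_rank_of_alt (Cfsg.Agent.Lib.Helper51.QPlus m F) h2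
    (Cfsg.Agent.Lib.Helper44.nondeg_QPlus m F) x hxx haltx
  have hle := Cfsg.Agent.Lib.Helper44.two_mul_rank_le (Cfsg.Agent.Lib.Helper51.QPlus m F) h2 x hxx
  have hcard : Fintype.card (Fin m ⊕ Fin m) = m + m := by simp
  have hs' : (Cfsg.Agent.Lib.Helper44.imat (Cfsg.Agent.Lib.Helper51.QPlus m F) x - 1).rank = s := hs
  refine ⟨?_, ?_, ?_⟩
  · rw [← hs']; exact hev
  · rw [← hs']; omega
  intro M hMQ hMM hMs hMalt
  have hTQ : ∀ v, (Cfsg.Agent.Lib.Helper51.QPlus m F) (Matrix.toLin' M v)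
      = (Cfsg.Agent.Lib.Helper51.QPlus m F) v := fun v => by
    rw [Matrix.toLin'_apply]; exact hMQ v
  have hTT : ∀ v, Matrix.toLin' M (Matrix.toLin' M v) = v := fun v => by
    rw [Matrix.toLin'_apply, Matrix.toLin'_apply, Matrix.mulVec_mulVec, hMM, Matrix.one_mulVec]
  have hy : Cfsg.Agent.Lib.Helper44.imat (Cfsg.Agent.Lib.Helper51.QPlus m F)
      (Cfsg.Agent.Lib.Helper44.mkInv (Cfsg.Agent.Lib.Helper51.QPlus m F) (Matrix.toLin' M) hTQ hTT)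
        = M := by
    rw [Cfsg.Agent.Lib.Helper44.imat_mkInv]; exact LinearMap.toMatrix'_toLin' M
  have hyy := Cfsg.Agent.Lib.Helper44.mkInv_mul_self (Cfsg.Agent.Lib.Helper51.QPlus m F)
    (Matrix.toLin' M) hTQ hTT
  have halty : Cfsg.Agent.Lib.Helper44.IsAltInv (Cfsg.Agent.Lib.Helper51.QPlus m F)
      (Cfsg.Agent.Lib.Helper44.mkInv (Cfsg.Agent.Lib.Helper51.QPlus m F) (Matrix.toLin' M)
        hTQ hTT) := by
    intro v
    rw [hy, ← hsub]; exact hMalt v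
  have hconj : IsConj x (Cfsg.Agent.Lib.Helper44.mkInv (Cfsg.Agent.Lib.Helper51.QPlus m F)
      (Matrix.toLin' M) hTQ hTT) := by
    rw [Cfsg.Agent.Lib.Helper44.isConj_inv_iff (Cfsg.Agent.Lib.Helper51.QPlus m F) h2
      (Cfsg.Agent.Lib.Helper44.nondeg_QPlus m F) x _ hxx hyy]
    refine ⟨?_, ⟨fun _ => halty, fun _ => haltx⟩⟩
    rw [hy, hMs]; exact hs'
  obtain ⟨c, hc⟩ := isConj_iff.1 hconj
  have h1 : c * x = (Cfsg.Agent.Lib.Helper44.mkInv (Cfsg.Agent.Lib.Helper51.QPlus m F)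
      (Matrix.toLin' M) hTQ hTT) * c := by rw [← hc]; group
  have h3 : Cfsg.Agent.Lib.Helper44.imat (Cfsg.Agent.Lib.Helper51.QPlus m F) c
      * Cfsg.Agent.Lib.Helper44.imat (Cfsg.Agent.Lib.Helper51.QPlus m F) x
      = Cfsg.Agent.Lib.Helper44.imat (Cfsg.Agent.Lib.Helper51.QPlus m F)
        (Cfsg.Agent.Lib.Helper44.mkInv (Cfsg.Agent.Lib.Helper51.QPlus m F) (Matrix.toLin' M)
          hTQ hTT)
        * Cfsg.Agent.Lib.Helper44.imat (Cfsg.Agent.Lib.Helper51.QPlus m F) c :=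
    congrArg (Cfsg.Agent.Lib.Helper44.imat (Cfsg.Agent.Lib.Helper51.QPlus m F)) h1
  rw [hy] at h3
  exact ⟨Cfsg.Agent.Lib.Helper44.imat (Cfsg.Agent.Lib.Helper51.QPlus m F) c,
    fun v => Cfsg.Agent.Lib.Helper51.isometry_apply (Cfsg.Agent.Lib.Helper51.QPlus m F) c v,
    Matrix.isUnits_det_units _, h3⟩

-- PIECE CONJALT
theorem alt_conj_std [Fintype F] [CharP F 2] (m s : ℕ)
    (x : ↥(Cfsg.isometryGroup F (Cfsg.quadFormPlus m F))) (hx : x ^ 2 = 1)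
    (hs : (omat x - 1).rank = s)
    (halt : ∀ v, Cfsg.quadFormPlus m F ((omat x - 1) *ᵥ v) = 0) :
    Even s ∧ s ≤ m ∧ ∀ M : Matrix (Fin m ⊕ Fin m) (Fin m ⊕ Fin m) F,
      (∀ v, Cfsg.quadFormPlus m F (M *ᵥ v) = Cfsg.quadFormPlus m F v) → M * M = 1 →
      (M - 1).rank = s → (∀ v, Cfsg.quadFormPlus m F ((M - 1) *ᵥ v) = 0) →
      ∃ P : Matrix (Fin m ⊕ Fin m) (Fin m ⊕ Fin m) F,
        (∀ v, Cfsg.quadFormPlus m F (P *ᵥ v) = Cfsg.quadFormPlus m F v) ∧ IsUnit P.det ∧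
        P * omat x = M * P := by
  have key := alt_conj_std_aux (F := F) m s
  rw [Cfsg.Agent.Lib.Helper51.coe_QPlus] at key
  exact key x hx hs halt

end Cfsg.Agent.Lib.Helper78.Omc
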