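import Mathlib
import Cfsg.Agent.Lib.Helper49.O2Base

/-!
# Piece COUNT of the S2487 project (helper49): the hyperbolic splitting count over `F₂`
-/

set_option autoImplicit false

namespace Cfsg.Agent.Lib.Helper78.O2Syl

open Cfsg.Agent.Lib.Helper49.O2Syl

variable {F : Type*} [Field F] [Fintype F] {V : Type*} [AddCommGroup V] [Module F V]

/-- COUNT -/
theorem count_split [Finite V] (hF : Fintype.card F = 2) (Q : QuadraticForm F V)
    (U : Submodule F V) (e f : V) (he : e ∈ perp Q U) (hf : f ∈ perp Q U)
    (hQe : Q e = 0) (hQf : Q f = 0) (hef : QuadraticMap.polar Q e f = 1) :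
    nW Q U = 4 * nW Q (Uef U e f) ∧ nS Q U = 2 * nS Q (Uef U e f) + nW Q (Uef U e f) := by
  classical
  have hfe : QuadraticMap.polar Q f e = 1 := by rw [QuadraticMap.polar_comm, hef]
  have hee : QuadraticMap.polar Q e e = 0 := by
    rw [QuadraticMap.polar_self, hQe, smul_zero]
  have hff : QuadraticMap.polar Q f f = 0 := by
    rw [QuadraticMap.polar_self, hQf, smul_zero]
  have hcardF : Nat.card F = 2 := by rw [Nat.card_eq_fintype_card, hF]
  -- facts about the smaller complement
  have hW'e : ∀ w : ↥(perp Q (Uef U e f)), QuadraticMap.polar Q (w : V) e = 0 :=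
    fun w => (mem_perp_Uef.1 w.2).2.1
  have hW'f : ∀ w : ↥(perp Q (Uef U e f)), QuadraticMap.polar Q (w : V) f = 0 :=
    fun w => (mem_perp_Uef.1 w.2).2.2
  have hW'W : ∀ w : ↥(perp Q (Uef U e f)), (w : V) ∈ perp Q U :=
    fun w => (mem_perp_Uef.1 w.2).1
  -- polar values on `a e + b f + w'`
  have hpf : ∀ (a b : F) (w : ↥(perp Q (Uef U e f))),
      QuadraticMap.polar Q (a • e + b • f + (w : V)) f = a := by
    intro a b w
    rw [QuadraticMap.polar_add_left, QuadraticMap.polar_add_left, QuadraticMap.polar_smul_left,
      QuadraticMap.polar_smul_left, hef, hff, hW'f w, smul_zero, add_zero, add_zero,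
      smul_eq_mul, mul_one]
  have hpe : ∀ (a b : F) (w : ↥(perp Q (Uef U e f))),
      QuadraticMap.polar Q (a • e + b • f + (w : V)) e = b := by
    intro a b w
    rw [QuadraticMap.polar_add_left, QuadraticMap.polar_add_left, QuadraticMap.polar_smul_left,
      QuadraticMap.polar_smul_left, hee, hfe, hW'e w, smul_zero, add_zero, zero_add,
      smul_eq_mul, mul_one]
  have hQval : ∀ (a b : F) (w : ↥(perp Q (Uef U e f))),
      Q (a • e + b • f + (w : V)) = a * b + Q (w : V) := by
    intro a b w
    have h1 : QuadraticMap.polar Q (a • e + b • f) (w : V) = 0 := by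
      rw [QuadraticMap.polar_add_left, QuadraticMap.polar_smul_left,
        QuadraticMap.polar_smul_left, QuadraticMap.polar_comm Q e, QuadraticMap.polar_comm Q f,
        hW'e w, hW'f w, smul_zero, smul_zero, add_zero]
    have h2 : Q (a • e + b • f) = a * b := by
      rw [QuadraticMap.map_add (⇑Q) (a • e) (b • f), QuadraticMap.map_smul,
        QuadraticMap.map_smul, hQe, hQf,
        smul_zero, smul_zero, zero_add, zero_add, QuadraticMap.polar_smul_left,
        QuadraticMap.polar_smul_right, hef, smul_eq_mul, smul_eq_mul, mul_one]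
    rw [QuadraticMap.map_add (⇑Q) (a • e + b • f) (w : V), h1, h2, add_zero]
  -- the inverse map lands in the smaller complement
  have hinvmem : ∀ x : ↥(perp Q U),
      (x : V) + QuadraticMap.polar Q (x : V) f • e + QuadraticMap.polar Q (x : V) e • f ∈
        perp Q (Uef U e f) := by
    intro x
    rw [mem_perp_Uef]
    refine ⟨(perp Q U).add_mem ((perp Q U).add_mem x.2 ((perp Q U).smul_mem _ he))
      ((perp Q U).smul_mem _ hf), ?_, ?_⟩
    · rw [QuadraticMap.polar_add_left, QuadraticMap.polar_add_left, QuadraticMap.polar_smul_left,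
        QuadraticMap.polar_smul_left, hee, hfe, smul_zero, add_zero, smul_eq_mul, mul_one]
      exact add_self_F hF _
    · rw [QuadraticMap.polar_add_left, QuadraticMap.polar_add_left, QuadraticMap.polar_smul_left,
        QuadraticMap.polar_smul_left, hef, hff, smul_zero, add_zero, smul_eq_mul, mul_one]
      exact add_self_F hF _
  -- the bijection
  let Ψ : (F × F × ↥(perp Q (Uef U e f))) ≃ ↥(perp Q U) :=
    { toFun := fun p => ⟨p.1 • e + p.2.1 • f + (p.2.2 : V),
        (perp Q U).add_mem ((perp Q U).add_mem ((perp Q U).smul_mem _ he)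
          ((perp Q U).smul_mem _ hf)) (hW'W p.2.2)⟩
      invFun := fun x => (QuadraticMap.polar Q (x : V) f, QuadraticMap.polar Q (x : V) e,
        ⟨_, hinvmem x⟩)
      left_inv := by
        rintro ⟨a, b, w⟩
        apply Prod.ext
        · exact hpf a b w
        · apply Prod.ext
          · exact hpe a b w
          · apply Subtype.ext
            show a • e + b • f + (w : V) +
              QuadraticMap.polar Q (a • e + b • f + (w : V)) f • e +
              QuadraticMap.polar Q (a • e + b • f + (w : V)) e • f = (w : V)
            rw [hpf a b w, hpe a b w]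
            have h1 : a • e + b • f + (w : V) + a • e + b • f =
                (w : V) + (a • e + a • e) + (b • f + b • f) := by abel
            rw [h1, add_self_V hF, add_self_V hF, add_zero, add_zero]
      right_inv := by
        intro x
        apply Subtype.ext
        show QuadraticMap.polar Q (x : V) f • e + QuadraticMap.polar Q (x : V) e • f +
          ((x : V) + QuadraticMap.polar Q (x : V) f • e + QuadraticMap.polar Q (x : V) e • f) =
          (x : V)
        have h1 : QuadraticMap.polar Q (x : V) f • e + QuadraticMap.polar Q (x : V) e • f +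
            ((x : V) + QuadraticMap.polar Q (x : V) f • e + QuadraticMap.polar Q (x : V) e • f) =
            (x : V) + (QuadraticMap.polar Q (x : V) f • e + QuadraticMap.polar Q (x : V) f • e) +
              (QuadraticMap.polar Q (x : V) e • f + QuadraticMap.polar Q (x : V) e • f) := by
          abel
        rw [h1, add_self_V hF, add_self_V hF, add_zero, add_zero] }
  have hΨ : ∀ p : F × F × ↥(perp Q (Uef U e f)),
      ((Ψ p : ↥(perp Q U)) : V) = p.1 • e + p.2.1 • f + (p.2.2 : V) := fun _ => rfl
  have hnW : nW Q U = Nat.card ↥(perp Q U) := by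
    unfold nW
    rw [← Nat.card_coe_set_eq]
    rfl
  have hnW' : nW Q (Uef U e f) = Nat.card ↥(perp Q (Uef U e f)) := by
    unfold nW
    rw [← Nat.card_coe_set_eq]
    rfl
  have hnS : nS Q U = Nat.card {x : ↥(perp Q U) // Q (x : V) = 0} := by
    unfold nS
    rw [← Nat.card_coe_set_eq]
    exact Nat.card_congr (Equiv.subtypeSubtypeEquivSubtypeInter (fun x : V => x ∈ perp Q U)
      (fun x : V => Q x = 0)).symm
  have hnS' : nS Q (Uef U e f) =
      Nat.card {x : ↥(perp Q (Uef U e f)) // Q (x : V) = 0} := by
    unfold nS
    rw [← Nat.card_coe_set_eq]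
    exact Nat.card_congr (Equiv.subtypeSubtypeEquivSubtypeInter
      (fun x : V => x ∈ perp Q (Uef U e f)) (fun x : V => Q x = 0)).symm
  constructor
  · rw [hnW, hnW', ← Nat.card_congr Ψ, Nat.card_prod, Nat.card_prod, hcardF]
    ring
  · -- the singular vectors
    have e1 : {x : ↥(perp Q U) // Q (x : V) = 0} ≃
        {p : F × F × ↥(perp Q (Uef U e f)) // p.1 * p.2.1 + Q (p.2.2 : V) = 0} :=
      (Equiv.subtypeEquiv Ψ (by
        intro p
        rw [hΨ, hQval])).symm
    let e2 : {p : F × F × ↥(perp Q (Uef U e f)) // p.1 * p.2.1 + Q (p.2.2 : V) = 0} ≃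
        (F × {x : ↥(perp Q (Uef U e f)) // Q (x : V) = 0}) ⊕ ↥(perp Q (Uef U e f)) :=
      { toFun := fun p =>
          if h : p.1.1 = 0 then
            Sum.inl (p.1.2.1, ⟨p.1.2.2, by
              have h2 := p.2
              rw [h, zero_mul, zero_add] at h2
              exact h2⟩)
          else Sum.inr p.1.2.2
        invFun := fun s =>
          match s with
          | Sum.inl q => ⟨(0, q.1, q.2.1), by
              show (0 : F) * q.1 + Q (q.2.1 : V) = 0
              rw [zero_mul, zero_add]
              exact q.2.2⟩
          | Sum.inr w => ⟨(1, Q (w : V), w), by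
              show (1 : F) * Q (w : V) + Q (w : V) = 0
              rw [one_mul]
              exact add_self_F hF _⟩
        left_inv := by
          rintro ⟨⟨a, b, w⟩, hp⟩
          by_cases h : a = 0
          · subst h
            simp
          · have ha : a = 1 := (zero_or_one hF a).resolve_left h
            subst ha
            have hp' : (1 : F) * b + Q (w : V) = 0 := hp
            have hb : Q (w : V) = b := by
              rw [one_mul] at hp'
              have h3 : b = -Q (w : V) := eq_neg_of_add_eq_zero_left hp'
              rw [h3, neg_eq_self_F hF]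
            simp [hb]
        right_inv := by
          rintro (q | w)
          · simp
          · simp }
    have hfin1 : Finite ↥(perp Q (Uef U e f)) := inferInstance
    rw [hnS, hnS', hnW', Nat.card_congr (e1.trans e2), Nat.card_sum, Nat.card_prod, hcardF]

end Cfsg.Agent.Lib.Helper78.O2Syl
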