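import Mathlib
import Cfsg.Agent.Lib.Helper49.O2Base

/-!
# Piece FIXPT of the S2487 project (helper49)
-/

set_option autoImplicit false

namespace Cfsg.Agent.Lib.Helper78.O2Syl

variable {F : Type*} [Field F] [Fintype F] {V : Type*} [AddCommGroup V] [Module F V]

/-- FIXPT -/
theorem exists_fixed_of_odd (P : Subgroup (V ≃ₗ[F] V)) (hP : IsPGroup 2 P) (X : Set V)
    (hfin : X.Finite) (hX : ∀ g ∈ P, ∀ x ∈ X, g x ∈ X) (hodd : Odd X.ncard) :
    ∃ x ∈ X, ∀ g ∈ P, g x = x := by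
  have : Fact (Nat.Prime 2) := ⟨Nat.prime_two⟩
  have : Finite ↥X := hfin.to_subtype
  let act : MulAction ↥P ↥X :=
    { smul := fun g x => ⟨(g : V ≃ₗ[F] V) (x : V), hX g g.2 x x.2⟩
      one_smul := fun x => Subtype.ext rfl
      mul_smul := fun g h x => Subtype.ext rfl }
  have hcard : ¬ 2 ∣ Nat.card ↥X := by
    rw [Nat.card_coe_set_eq]
    intro h
    exact (Nat.not_even_iff_odd.2 hodd) (even_iff_two_dvd.2 h)
  obtain ⟨x, hx⟩ := IsPGroup.nonempty_fixed_point_of_prime_not_dvd_card hP ↥X hcard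
  refine ⟨x, x.2, fun g hg => ?_⟩
  have h := hx ⟨g, hg⟩
  exact congrArg Subtype.val h

end Cfsg.Agent.Lib.Helper78.O2Syl
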