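import Mathlib
import Cfsg.Agent.Lib.Helper49.O2Base

/-!
# Piece NORM2 of the S2487 project (helper49)
-/

set_option autoImplicit false

namespace Cfsg.Agent.Lib.Helper78.O2Syl

/-- NORM2 -/
theorem le_of_normal_two_group {G : Type*} [Group G] [Finite G] (P S K : Subgroup G)
    (hP : IsPGroup 2 P) (hPS : P ≤ S) (hKS : K ≤ S)
    (hnorm : ∀ s ∈ S, ∀ k ∈ K, s * k * s⁻¹ ∈ K) (hK : ∀ k ∈ K, k ^ 4 = 1)
    (hodd : Odd (P.relIndex S)) : K ≤ P := by
  have hK2 : IsPGroup 2 K := by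
    intro g
    refine ⟨2, ?_⟩
    apply Subtype.ext
    rw [Subgroup.coe_pow]
    exact hK g g.2
  have hPN : P ≤ Subgroup.normalizer (K : Set G) := by
    intro s hs
    rw [Subgroup.mem_normalizer_iff]
    intro h
    constructor
    · intro hh
      exact hnorm s (hPS hs) h hh
    · intro hh
      have h1 := hnorm s⁻¹ (inv_mem (hPS hs)) _ hh
      rw [inv_inv] at h1
      have e : s⁻¹ * (s * h * s⁻¹) * s = h := by group
      rwa [e] at h1
  have hQ : IsPGroup 2 (P ⊔ K : Subgroup G) := IsPGroup.to_sup_of_normal_right' hP hK2 hPN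
  have hQS : P ⊔ K ≤ S := sup_le hPS hKS
  have hdvd : P.relIndex (P ⊔ K) ∣ P.relIndex S :=
    Dvd.intro _ (Subgroup.relIndex_mul_relIndex P (P ⊔ K) S le_sup_left hQS)
  have hodd' : Odd (P.relIndex (P ⊔ K)) := Odd.of_dvd_nat hodd hdvd
  have : Fact (Nat.Prime 2) := ⟨Nat.prime_two⟩
  obtain ⟨n, hn⟩ := IsPGroup.index hQ (P.subgroupOf (P ⊔ K))
  have h1 : P.relIndex (P ⊔ K) = 1 := by
    show (P.subgroupOf (P ⊔ K)).index = 1
    rw [hn]
    rcases Nat.eq_zero_or_pos n with h0 | hpos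
    · rw [h0, pow_zero]
    · exfalso
      have h2 : Even ((P.subgroupOf (P ⊔ K)).index) := by
        rw [hn]
        exact (Nat.even_pow' hpos.ne').2 even_two
      exact (Nat.not_even_iff_odd.2 hodd') h2
  exact le_trans le_sup_right (Subgroup.relIndex_eq_one.1 h1)

end Cfsg.Agent.Lib.Helper78.O2Syl
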