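import Mathlib
import Cfsg.Agent.Lib.Helper49.O2Base

/-!
# Piece SING of the S2487 project (helper49)
-/

set_option autoImplicit false

namespace Cfsg.Agent.Lib.Helper78.O2Syl

open Cfsg.Agent.Lib.Helper49.O2Syl

variable {F : Type*} [Field F] [Fintype F] {V : Type*} [AddCommGroup V] [Module F V]

/-- SING -/
theorem exists_singular [Finite V] (Q : QuadraticForm F V)
    (U : Submodule F V) (hplus : nW Q U < 2 * nS Q U) (hne : ∃ w ∈ perp Q U, w ≠ 0) :
    ∃ e ∈ perp Q U, e ≠ 0 ∧ Q e = 0 := by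
  obtain ⟨w, hw, hw0⟩ := hne
  have h2 : 2 ≤ nW Q U := by
    unfold nW
    rw [← Set.ncard_pair hw0]
    apply Set.ncard_le_ncard _ (Set.toFinite _)
    intro x hx
    rcases hx with rfl | rfl
    · exact hw
    · exact (perp Q U).zero_mem
  have h1 : 1 < nS Q U := by omega
  unfold nS at h1
  obtain ⟨e, he, he0⟩ := Set.exists_ne_of_one_lt_ncard h1 0
  exact ⟨e, he.1, he0, he.2⟩

end Cfsg.Agent.Lib.Helper78.O2Syl
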