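import Mathlib
import Cfsg.Agent.Lib.Helper49.O2Base

/-!
# Piece TRANSFER of the S2487 project (helper49)
-/

set_option autoImplicit false

namespace Cfsg.Agent.Lib.Helper78.O2Syl

/-- TRANSFER -/
theorem relIndex_transfer {G : Type*} [Group G] [Finite G] (P K L S : Subgroup G)
    (hKP : K ≤ P) (hLS : L ≤ S) (hdec : ∀ s ∈ S, ∃ k ∈ K, ∃ l ∈ L, s = k * l) :
    P.relIndex L = P.relIndex S := by
  have hcompat : ∀ a b : ↥L, QuotientGroup.leftRel (P.subgroupOf L) a b →
      QuotientGroup.leftRel (P.subgroupOf S) (Subgroup.inclusion hLS a)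
        (Subgroup.inclusion hLS b) := by
    intro a b hab
    rw [QuotientGroup.leftRel_apply] at hab ⊢
    rw [Subgroup.mem_subgroupOf] at hab ⊢
    exact hab
  unfold Subgroup.relIndex Subgroup.index
  refine Nat.card_congr (Equiv.ofBijective
    (Quotient.map' (Subgroup.inclusion hLS) hcompat) ⟨?_, ?_⟩)
  · intro x y
    induction x using Quotient.inductionOn' with
    | _ a =>
      induction y using Quotient.inductionOn' with
      | _ b =>
        intro h
        rw [Quotient.map'_mk'', Quotient.map'_mk'', Quotient.eq'',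
          QuotientGroup.leftRel_apply, Subgroup.mem_subgroupOf] at h
        rw [Quotient.eq'', QuotientGroup.leftRel_apply, Subgroup.mem_subgroupOf]
        exact h
  · intro y
    induction y using Quotient.inductionOn' with
    | _ s =>
      obtain ⟨k, hk, l, hl, e⟩ := hdec (s : G)⁻¹ (inv_mem s.2)
      refine ⟨Quotient.mk'' ⟨l⁻¹, inv_mem hl⟩, ?_⟩
      rw [Quotient.map'_mk'', Quotient.eq'', QuotientGroup.leftRel_apply,
        Subgroup.mem_subgroupOf]
      have h1 : (((Subgroup.inclusion hLS ⟨l⁻¹, inv_mem hl⟩)⁻¹ * s : ↥S) : G) = k⁻¹ := by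
        show (l⁻¹)⁻¹ * (s : G) = k⁻¹
        have h2 : (s : G) = l⁻¹ * k⁻¹ := by
          rw [← mul_inv_rev, ← e, inv_inv]
        rw [h2]
        group
      rw [h1]
      exact inv_mem (hKP hk)

end Cfsg.Agent.Lib.Helper78.O2Syl
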