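import Cfsg.Agent.Lib.Helper6.OddGr1

/-!
# Piece BAL0 of the S3265 project (helper6): conjugate involutions have equally many bad
fixed points
-/

set_option autoImplicit false
set_option linter.unusedSectionVars false
set_option linter.unusedVariables false

namespace Cfsg.Agent.Lib.Helper78.OddGr

open Equiv Cfsg.Agent.Lib.Helper6.OddGr

variable {Ω : Type*} [Fintype Ω] [DecidableEq Ω] {x y : Perm Ω}

/-- the half-period shift of a good `y`-fixed point is `x`-fixed -/
theorem bal_shift_x (hx : x * x = 1) (hy : y * y = 1) {e : Ω} (he : y e = e)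
    (hodd : Odd (per x y e)) :
    x (((x * y) ^ (((per x y e + 1) / 2 : ℕ) : ℤ)) e) =
      ((x * y) ^ (((per x y e + 1) / 2 : ℕ) : ℤ)) e := by
  rw [x_zpow_apply hx hy, x_apply_of_yfix he]
  have h1 : ((x * y) ^ (-(((per x y e + 1) / 2 : ℕ) : ℤ))) ((x * y) e) =
      ((x * y) ^ (1 - (((per x y e + 1) / 2 : ℕ) : ℤ))) e := by
    rw [sub_eq_neg_add, zpow_add, zpow_one]
    rfl
  rw [h1, zpow_apply_eq_zpow_apply_iff]
  obtain ⟨k, hk⟩ := hodd
  have hj : (per x y e + 1) / 2 = k + 1 := by omega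
  rw [hj, hk]
  refine ⟨-1, ?_⟩
  push_cast
  ring

/-- the inverse half-period shift of a good `x`-fixed point is `y`-fixed -/
theorem bal_shift_y (hx : x * x = 1) (hy : y * y = 1) {g : Ω} (hg : x g = g)
    (hodd : Odd (per x y g)) :
    y (((x * y) ^ (-(((per x y g + 1) / 2 : ℕ) : ℤ))) g) =
      ((x * y) ^ (-(((per x y g + 1) / 2 : ℕ) : ℤ))) g := by
  rw [y_zpow_apply hx hy, y_apply_of_xfix hx hy hg, neg_neg]
  rw [← Perm.mul_apply, ← zpow_add, zpow_apply_eq_zpow_apply_iff]
  obtain ⟨k, hk⟩ := hodd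
  have hj : (per x y g + 1) / 2 = k + 1 := by omega
  rw [hj, hk]
  refine ⟨1, ?_⟩
  push_cast
  ring

/-! ## piece BAL0 -/
theorem bal_univ (hx : x * x = 1) (hy : y * y = 1) (hc : IsConj x y) : Bal x y Set.univ := by
  classical
  unfold Bal
  -- fixed point sets
  have hfix : {s : Ω | y s = s}.ncard = {s : Ω | x s = s}.ncard := by
    obtain ⟨g, hg⟩ := isConj_iff.1 hc
    have himg : {s : Ω | y s = s} = g '' {s : Ω | x s = s} := by
      ext t
      simp only [Set.mem_ofPred_eq, Set.mem_image]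
      constructor
      · intro ht
        refine ⟨g⁻¹ t, ?_, by simp⟩
        have hxe : x = g⁻¹ * y * g := by rw [← hg]; group
        rw [hxe]
        simp [ht]
      · rintro ⟨s, hs, rfl⟩
        rw [← hg]
        simp [hs]
    rw [himg, Set.ncard_image_of_injective _ g.injective]
  -- the shift
  let F : Ω → Ω := fun s => ((x * y) ^ (((per x y s + 1) / 2 : ℕ) : ℤ)) s
  let F' : Ω → Ω := fun s => ((x * y) ^ (-(((per x y s + 1) / 2 : ℕ) : ℤ))) s
  have hperF : ∀ s, per x y (F s) = per x y s := fun s => per_zpow_apply x y s _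
  have hperF' : ∀ s, per x y (F' s) = per x y s := fun s => per_zpow_apply x y s _
  have hFF' : ∀ s, F (F' s) = s := by
    intro s
    show ((x * y) ^ (((per x y (F' s) + 1) / 2 : ℕ) : ℤ)) (F' s) = s
    rw [hperF']
    show ((x * y) ^ (((per x y s + 1) / 2 : ℕ) : ℤ))
      (((x * y) ^ (-(((per x y s + 1) / 2 : ℕ) : ℤ))) s) = s
    rw [← Perm.mul_apply, ← zpow_add]
    simp
  have hF'F : ∀ s, F' (F s) = s := by
    intro s
    show ((x * y) ^ (-(((per x y (F s) + 1) / 2 : ℕ) : ℤ))) (F s) = s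
    rw [hperF]
    show ((x * y) ^ (-(((per x y s + 1) / 2 : ℕ) : ℤ)))
      (((x * y) ^ (((per x y s + 1) / 2 : ℕ) : ℤ)) s) = s
    rw [← Perm.mul_apply, ← zpow_add]
    simp
  have hFinj : Function.Injective F := Function.LeftInverse.injective hF'F
  have hgood : {e : Ω | y e = e ∧ Odd (per x y e)}.ncard =
      {g : Ω | x g = g ∧ Odd (per x y g)}.ncard := by
    have himg : {g : Ω | x g = g ∧ Odd (per x y g)} =
        F '' {e : Ω | y e = e ∧ Odd (per x y e)} := by
      ext t
      simp only [Set.mem_ofPred_eq, Set.mem_image]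
      constructor
      · rintro ⟨ht, hodd⟩
        refine ⟨F' t, ⟨bal_shift_y hx hy ht hodd, ?_⟩, hFF' t⟩
        rw [hperF']
        exact hodd
      · rintro ⟨e, ⟨he, hodd⟩, rfl⟩
        refine ⟨bal_shift_x hx hy he hodd, ?_⟩
        rw [hperF]
        exact hodd
    rw [himg, Set.ncard_image_of_injective _ hFinj]
  have hY : {s : Ω | y s = s} = {e : Ω | y e = e ∧ Odd (per x y e)} ∪ YB x y Set.univ := by
    ext s
    simp only [YB, Set.mem_ofPred_eq, Set.mem_union, Set.mem_univ, true_and]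
    constructor
    · intro h
      rcases Nat.even_or_odd (per x y s) with h1 | h1
      · exact Or.inr ⟨h, h1⟩
      · exact Or.inl ⟨h, h1⟩
    · rintro (h | h) <;> exact h.1
  have hX : {s : Ω | x s = s} = {g : Ω | x g = g ∧ Odd (per x y g)} ∪ XB x y Set.univ := by
    ext s
    simp only [XB, Set.mem_ofPred_eq, Set.mem_union, Set.mem_univ, true_and]
    constructor
    · intro h
      rcases Nat.even_or_odd (per x y s) with h1 | h1
      · exact Or.inr ⟨h, h1⟩
      · exact Or.inl ⟨h, h1⟩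
    · rintro (h | h) <;> exact h.1
  have hYd : Disjoint {e : Ω | y e = e ∧ Odd (per x y e)} (YB x y Set.univ) := by
    rw [Set.disjoint_left]
    rintro s ⟨_, h1⟩ ⟨_, _, h2⟩
    exact (Nat.not_even_iff_odd.2 h1) h2
  have hXd : Disjoint {g : Ω | x g = g ∧ Odd (per x y g)} (XB x y Set.univ) := by
    rw [Set.disjoint_left]
    rintro s ⟨_, h1⟩ ⟨_, _, h2⟩
    exact (Nat.not_even_iff_odd.2 h1) h2
  have e1 := Set.ncard_union_eq hYd
  have e2 := Set.ncard_union_eq hXd
  rw [← hY] at e1
  rw [← hX] at e2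
  omega

end Cfsg.Agent.Lib.Helper78.OddGr
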