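import Mathlib
import Cfsg.Agent.Lib.Helper62.MargDefs

/-!
# Piece MG-K of the S3620 project (helper62): quasiprimitive + small Jordan set ⟹ primitive
-/

set_option autoImplicit false
set_option linter.unusedVariables false

namespace Cfsg.Agent.Lib.Helper62.Marg

open MulAction
open scoped Pointwise

/-- an element fixing the complement of `J` pointwise preserves `J` -/
theorem mgK_pres {G : Type*} {Ω : Type*} [Group G] [MulAction G Ω] (J : Set Ω) (h : G)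
    (hfix : ∀ x ∈ Jᶜ, h • x = x) {x : Ω} (hx : x ∈ J) : h • x ∈ J := by
  by_contra hn
  have h1 : h • (h • x) = h • x := hfix _ hn
  have h2 : h • x = x := smul_left_cancel h h1
  exact hn (h2.symm ▸ hx)

/-- if all `g` with `g • γ ∈ J` lie in one coset of `M`, the pointwise stabiliser of `Jᶜ`
lies in the core of `M`: contradiction -/
theorem mgK_false_of_coset {G : Type*} {Ω : Type*} [Group G] [MulAction G Ω]
    (J : Set Ω) (hflat : Flat G Jᶜ) {γ γ' : Ω} (hγ : γ ∈ J) (hγ' : γ' ∈ J) (hne : γ ≠ γ')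
    (M : Subgroup G) (hM : stabilizer G γ ≤ M) (hcore : M.normalCore = ⊥) (g₀ : G)
    (hg₀ : ∀ g : G, g • γ ∈ J → g₀⁻¹ * g ∈ M) : False := by
  obtain ⟨h, hfix, hh⟩ := hflat γ (not_not.2 hγ) γ' (not_not.2 hγ')
  have hmem : h ∈ M.normalCore := by
    show ∀ b : G, b * h * b⁻¹ ∈ M
    intro b
    by_cases hb : b⁻¹ • γ ∈ J
    · have h1 := hg₀ b⁻¹ hb
      have h2 := hg₀ (h * b⁻¹) (by rw [mul_smul]; exact mgK_pres J h hfix hb)
      have e : b * h * b⁻¹ = (g₀⁻¹ * b⁻¹)⁻¹ * (g₀⁻¹ * (h * b⁻¹)) := by group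
      rw [e]
      exact M.mul_mem (M.inv_mem h1) h2
    · apply hM
      rw [mem_stabilizer_iff, mul_smul, mul_smul, hfix _ hb, smul_inv_smul]
  rw [hcore, Subgroup.mem_bot] at hmem
  rw [hmem, one_smul] at hh
  exact hne hh

theorem quasi_block {G : Type*} {Ω : Type*} [Group G] [MulAction G Ω] [FaithfulSMul G Ω]
    (hqp : ∀ N : Subgroup G, N.Normal → N ≠ ⊥ → IsPretransitive ↥N Ω)
    (J : Set Ω) (hflat : Flat G Jᶜ) {γ γ' : Ω} (hγ : γ ∈ J) (hγ' : γ' ∈ J) (hne : γ ≠ γ')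
    (M : Subgroup G) (hM : stabilizer G γ ≤ M) (hMtop : M ≠ ⊤) :
    M.normalCore = ⊥ ∧ (∀ g : G, ∀ k ∈ M, ((g * k) • γ ∈ J ↔ g • γ ∈ J)) ∧
      ∃ g : G, g • γ ∈ J ∧ g ∉ M := by
  have hcore : M.normalCore = ⊥ := by
    by_contra hN
    have := hqp M.normalCore (Subgroup.normalCore_normal M) hN
    apply hMtop
    rw [eq_top_iff]
    intro g _
    obtain ⟨n, hn⟩ := exists_smul_eq (↥M.normalCore) γ (g • γ)
    have hn' : (n : G) • γ = g • γ := hn
    have h1 : ((n : G)⁻¹ * g) ∈ stabilizer G γ := by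
      rw [mem_stabilizer_iff, mul_smul, ← hn', inv_smul_smul]
    have h2 : (n : G) ∈ M := Subgroup.normalCore_le M n.2
    have e : g = (n : G) * ((n : G)⁻¹ * g) := by group
    rw [e]
    exact M.mul_mem h2 (hM h1)
  refine ⟨hcore, ?_, ?_⟩
  · have key : ∀ g₀ : G, ∀ k₀ ∈ M, g₀ • γ ∈ J → (g₀ * k₀) • γ ∉ J → False := by
      intro g₀ k₀ hk₀ h1 h2
      apply mgK_false_of_coset J hflat hγ hγ' hne M hM hcore g₀
      intro g hg
      obtain ⟨h, hfix, hh⟩ := hflat (g₀ • γ) (not_not.2 h1) (g • γ) (not_not.2 hg)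
      have h3 : h • ((g₀ * k₀) • γ) = (g₀ * k₀) • γ := hfix _ h2
      have h4 : (g₀ * k₀)⁻¹ * h * (g₀ * k₀) ∈ M := by
        apply hM
        rw [mem_stabilizer_iff, mul_smul, mul_smul, h3, inv_smul_smul]
      have h5 : g₀⁻¹ * h * g₀ ∈ M := by
        have e : g₀⁻¹ * h * g₀ = k₀ * ((g₀ * k₀)⁻¹ * h * (g₀ * k₀)) * k₀⁻¹ := by group
        rw [e]
        exact M.mul_mem (M.mul_mem hk₀ h4) (M.inv_mem hk₀)
      have h6 : (h * g₀)⁻¹ * g ∈ M := by
        apply hM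
        rw [mem_stabilizer_iff, mul_smul, ← hh, smul_smul h g₀ γ, inv_smul_smul]
      have e : g₀⁻¹ * g = (g₀⁻¹ * h * g₀) * ((h * g₀)⁻¹ * g) := by group
      rw [e]
      exact M.mul_mem h5 h6
    intro g k hk
    constructor
    · intro h1
      by_contra h2
      apply key (g * k) k⁻¹ (M.inv_mem hk) h1
      rw [mul_assoc, mul_inv_cancel, mul_one]
      exact h2
    · intro h1
      by_contra h2
      exact key g k hk h1 h2
  · by_contra hcon
    push Not at hcon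
    apply mgK_false_of_coset J hflat hγ hγ' hne M hM hcore 1
    intro g hg
    rw [inv_one, one_mul]
    exact hcon g hg

/-- the coset map `Ω → G ⧸ M`, `g • γ ↦ g M` -/
theorem mgK_exists_pi {G : Type*} {Ω : Type*} [Group G] [MulAction G Ω] [IsPretransitive G Ω]
    {γ : Ω} (M : Subgroup G) (hM : stabilizer G γ ≤ M) :
    ∃ π : Ω → G ⧸ M, ∀ g : G, π (g • γ) = (g : G ⧸ M) := by
  refine ⟨fun ω => ((Classical.choose (exists_smul_eq G γ ω) : G) : G ⧸ M), fun g => ?_⟩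
  have hc := Classical.choose_spec (exists_smul_eq G γ (g • γ))
  show ((Classical.choose (exists_smul_eq G γ (g • γ)) : G) : G ⧸ M) = (g : G ⧸ M)
  generalize Classical.choose (exists_smul_eq G γ (g • γ)) = c at hc ⊢
  rw [QuotientGroup.eq]
  apply hM
  rw [mem_stabilizer_iff, mul_smul, ← hc, inv_smul_smul]

theorem mgK_finite_quot {G : Type*} {Ω : Type*} [Group G] [MulAction G Ω] [Finite Ω]
    [IsPretransitive G Ω] {γ : Ω} (M : Subgroup G) (hM : stabilizer G γ ≤ M) :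
    Finite (G ⧸ M) := by
  obtain ⟨π, hπ⟩ := mgK_exists_pi M hM
  apply Finite.of_surjective π
  intro q
  obtain ⟨g, rfl⟩ := QuotientGroup.mk_surjective q
  exact ⟨g • γ, hπ g⟩

/-- membership in the set of cosets `J'` -/
theorem mgK_mem_J' {G : Type*} {Ω : Type*} [Group G] [MulAction G Ω] (J : Set Ω) {γ : Ω}
    (M : Subgroup G) (hwd : ∀ g : G, ∀ k ∈ M, ((g * k) • γ ∈ J ↔ g • γ ∈ J)) (g : G) :
    (g : G ⧸ M) ∈ ({q : G ⧸ M | ∃ g : G, (g : G ⧸ M) = q ∧ g • γ ∈ J} : Set (G ⧸ M)) ↔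
      g • γ ∈ J := by
  constructor
  · rintro ⟨g', hg', hJ⟩
    have hk : g'⁻¹ * g ∈ M := QuotientGroup.eq.1 hg'
    have := (hwd g' (g'⁻¹ * g) hk).2 hJ
    rwa [mul_inv_cancel_left] at this
  · intro h
    exact ⟨g, rfl, h⟩

/-- elements fixing `Jᶜ` pointwise fix `J'ᶜ` pointwise -/
theorem mgK_fix_coset {G : Type*} {Ω : Type*} [Group G] [MulAction G Ω] (J : Set Ω) {γ : Ω}
    (M : Subgroup G) (hM : stabilizer G γ ≤ M)
    (hwd : ∀ g : G, ∀ k ∈ M, ((g * k) • γ ∈ J ↔ g • γ ∈ J)) (h : G)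
    (hfix : ∀ x ∈ Jᶜ, h • x = x) (q : G ⧸ M)
    (hq : q ∈ ({q : G ⧸ M | ∃ g : G, (g : G ⧸ M) = q ∧ g • γ ∈ J} : Set (G ⧸ M))ᶜ) :
    h • q = q := by
  obtain ⟨g, rfl⟩ := QuotientGroup.mk_surjective q
  have hgJ : g • γ ∉ J := fun hc => hq ((mgK_mem_J' J M hwd g).2 hc)
  have h1 : h • (g • γ) = g • γ := hfix _ hgJ
  show ((h * g : G) : G ⧸ M) = (g : G ⧸ M)
  rw [QuotientGroup.eq]
  apply hM
  rw [mem_stabilizer_iff, mul_smul, ← h1, smul_smul h g γ, inv_smul_smul]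

theorem quasi_quot {G : Type*} {Ω : Type*} [Group G] [MulAction G Ω] [Finite Ω]
    [IsPretransitive G Ω]
    (J : Set Ω) (h1 : 1 < J.ncard) (h2 : 2 * J.ncard < Nat.card Ω) (hflat : Flat G Jᶜ)
    {γ : Ω} (hγ : γ ∈ J) (M : Subgroup G) (hM : stabilizer G γ ≤ M)
    (hwd : ∀ g : G, ∀ k ∈ M, ((g * k) • γ ∈ J ↔ g • γ ∈ J))
    (hex : ∃ g : G, g • γ ∈ J ∧ g ∉ M) :
    1 < ({q : G ⧸ M | ∃ g : G, (g : G ⧸ M) = q ∧ g • γ ∈ J} : Set (G ⧸ M)).ncard ∧
    2 * ({q : G ⧸ M | ∃ g : G, (g : G ⧸ M) = q ∧ g • γ ∈ J} : Set (G ⧸ M)).ncard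
      < Nat.card (G ⧸ M) ∧
    Flat G ({q : G ⧸ M | ∃ g : G, (g : G ⧸ M) = q ∧ g • γ ∈ J} : Set (G ⧸ M))ᶜ := by
  classical
  have hfin : Finite (G ⧸ M) := mgK_finite_quot M hM
  have hmem : ∀ g : G,
      (g : G ⧸ M) ∈ ({q : G ⧸ M | ∃ g : G, (g : G ⧸ M) = q ∧ g • γ ∈ J} : Set (G ⧸ M)) ↔
        g • γ ∈ J := mgK_mem_J' J M hwd
  generalize hJ' : ({q : G ⧸ M | ∃ g : G, (g : G ⧸ M) = q ∧ g • γ ∈ J} : Set (G ⧸ M)) = J'
    at hmem ⊢
  refine ⟨?_, ?_, ?_⟩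
  · -- 1 < |J'|
    obtain ⟨g, hgJ, hgM⟩ := hex
    rw [Set.one_lt_ncard_iff]
    refine ⟨((1 : G) : G ⧸ M), (g : G ⧸ M), (hmem 1).2 (by rwa [one_smul]), (hmem g).2 hgJ, ?_⟩
    intro h
    apply hgM
    have := QuotientGroup.eq.1 h
    simpa using this
  · -- counting
    obtain ⟨π, hπ⟩ := mgK_exists_pi M hM
    have hπeq : ∀ (g : G) (ω : Ω), π (g • ω) = g • π ω := by
      intro g ω
      obtain ⟨c, rfl⟩ := exists_smul_eq G γ ω
      rw [smul_smul, hπ, hπ]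
      rfl
    have hπJ : ∀ ω : Ω, ω ∈ J ↔ π ω ∈ J' := by
      intro ω
      obtain ⟨c, rfl⟩ := exists_smul_eq G γ ω
      rw [hπ, hmem]
    have hinvout : ∀ q : G ⧸ M, (Quotient.out q : G)⁻¹ • q = ((1 : G) : G ⧸ M) := by
      intro q
      have hq := QuotientGroup.out_eq' q
      generalize Quotient.out q = r at hq ⊢
      subst hq
      show ((r⁻¹ * r : G) : G ⧸ M) = _
      rw [inv_mul_cancel]
    let e : Ω ≃ (G ⧸ M) × {ω : Ω // π ω = ((1 : G) : G ⧸ M)} :=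
      { toFun := fun ω => (π ω, ⟨(Quotient.out (π ω) : G)⁻¹ • ω, by
          rw [hπeq]
          exact hinvout (π ω)⟩)
        invFun := fun p => (Quotient.out p.1 : G) • (p.2 : Ω)
        left_inv := fun ω => by simp
        right_inv := fun p => by
          have h1 : π ((Quotient.out p.1 : G) • (p.2 : Ω)) = p.1 := by
            rw [hπeq, p.2.2]
            show (((Quotient.out p.1 : G) * 1 : G) : G ⧸ M) = p.1
            rw [mul_one]
            exact QuotientGroup.out_eq' p.1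
          refine Prod.ext h1 (Subtype.ext ?_)
          show (Quotient.out (π ((Quotient.out p.1 : G) • (p.2 : Ω))) : G)⁻¹ •
            ((Quotient.out p.1 : G) • (p.2 : Ω)) = (p.2 : Ω)
          rw [h1, inv_smul_smul] }
    have hcardΩ : Nat.card Ω =
        Nat.card (G ⧸ M) * Nat.card {ω : Ω // π ω = ((1 : G) : G ⧸ M)} := by
      rw [Nat.card_congr e, Nat.card_prod]
    have himg : e '' J = J' ×ˢ (Set.univ : Set {ω : Ω // π ω = ((1 : G) : G ⧸ M)}) := by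
      ext p
      constructor
      · rintro ⟨ω, hω, rfl⟩
        exact ⟨(hπJ ω).1 hω, Set.mem_univ _⟩
      · rintro ⟨hp, -⟩
        refine ⟨e.symm p, ?_, e.apply_symm_apply p⟩
        rw [hπJ]
        have h3 : π (e.symm p) = p.1 := congrArg Prod.fst (e.apply_symm_apply p)
        rw [h3]
        exact hp
    have hcardJ : J.ncard = J'.ncard * Nat.card {ω : Ω // π ω = ((1 : G) : G ⧸ M)} := by
      rw [← Set.ncard_image_of_injective J e.injective, himg, Set.ncard_prod, Set.ncard_univ]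
    rw [hcardΩ, hcardJ, ← mul_assoc] at h2
    exact Nat.lt_of_mul_lt_mul_right h2
  · -- Flat
    intro q₁ hq₁ q₂ hq₂
    have hq₁' : q₁ ∈ J' := not_not.1 hq₁
    have hq₂' : q₂ ∈ J' := not_not.1 hq₂
    obtain ⟨g₁, rfl⟩ := QuotientGroup.mk_surjective q₁
    obtain ⟨g₂, rfl⟩ := QuotientGroup.mk_surjective q₂
    obtain ⟨h, hfix, hh⟩ := hflat (g₁ • γ) (not_not.2 ((hmem g₁).1 hq₁')) (g₂ • γ)
      (not_not.2 ((hmem g₂).1 hq₂'))
    refine ⟨h, fun q hq => ?_, ?_⟩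
    · subst hJ'
      exact mgK_fix_coset J M hM hwd h hfix q hq
    · show ((h * g₁ : G) : G ⧸ M) = (g₂ : G ⧸ M)
      rw [QuotientGroup.eq]
      apply hM
      rw [mem_stabilizer_iff, mul_smul, ← hh, smul_smul h g₁ γ, inv_smul_smul]

end Cfsg.Agent.Lib.Helper62.Marg
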