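import Mathlib
import Cfsg.Agent.Lib.Helper62.MargDefs
import Cfsg.Agent.Lib.Helper78.MargK

/-!
# Piece MG-K of the S3620 project (helper62), part 2: `quasi_contra`
-/

set_option autoImplicit false
set_option linter.unusedVariables false

namespace Cfsg.Agent.Lib.Helper62.Marg

open MulAction
open scoped Pointwise

theorem quasi_contra {G : Type*} {Ω : Type*} [Group G] [MulAction G Ω] [Finite Ω]
    [IsPretransitive G Ω]
    (J : Set Ω) (hflat : Flat G Jᶜ)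
    {γ : Ω} (hγ : γ ∈ J) (M : Subgroup G) (hM : stabilizer G γ ≤ M)
    (hMne : stabilizer G γ ≠ M)
    (hcore : M.normalCore = ⊥)
    (hwd : ∀ g : G, ∀ k ∈ M, ((g * k) • γ ∈ J ↔ g • γ ∈ J))
    (hJ'1 : 1 < ({q : G ⧸ M | ∃ g : G, (g : G ⧸ M) = q ∧ g • γ ∈ J} : Set (G ⧸ M)).ncard)
    (hJ'2 : 2 * ({q : G ⧸ M | ∃ g : G, (g : G ⧸ M) = q ∧ g • γ ∈ J} : Set (G ⧸ M)).ncard
      < Nat.card (G ⧸ M))
    (hprim : IsPreprimitive G (G ⧸ M))
    (h3 : ∃ g : G, Act3 (Ω := G ⧸ M) g) : False := by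
  classical
  have hfin : Finite (G ⧸ M) := mgK_finite_quot M hM
  have : Fintype (G ⧸ M) := Fintype.ofFinite _
  have hmem := mgK_mem_J' J M hwd
  have hfixc := mgK_fix_coset J M hM hwd
  generalize hJ' : ({q : G ⧸ M | ∃ g : G, (g : G ⧸ M) = q ∧ g • γ ∈ J} : Set (G ⧸ M)) = J'
    at hmem hfixc hJ'1 hJ'2
  -- the permutation group induced on the cosets is primitive
  have hPprim : IsPreprimitive ↥(MulAction.toPermHom G (G ⧸ M)).range (G ⧸ M) := by
    let φ : G → ↥(MulAction.toPermHom G (G ⧸ M)).range :=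
      fun g => ⟨MulAction.toPermHom G (G ⧸ M) g, ⟨g, rfl⟩⟩
    let f : (G ⧸ M) →ₑ[φ] (G ⧸ M) :=
      { toFun := id
        map_smul' := fun g x => rfl }
    exact IsPreprimitive.of_surjective (f := f) Function.surjective_id
  -- the 3-cycle
  obtain ⟨g3, a, b, c, hab, hbc, hac, hga, hgb, hgc, hgx⟩ := h3
  have h3c : MulAction.toPermHom G (G ⧸ M) g3 = Equiv.swap a c * Equiv.swap a b := by
    ext x
    rw [MulAction.toPermHom_apply, MulAction.toPerm_apply, Equiv.Perm.mul_apply]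
    by_cases hxa : x = a
    · rw [hxa, Equiv.swap_apply_left, Equiv.swap_apply_of_ne_of_ne hab.symm hbc, hga]
    · by_cases hxb : x = b
      · rw [hxb, Equiv.swap_apply_right, Equiv.swap_apply_left, hgb]
      · by_cases hxc : x = c
        · rw [hxc, Equiv.swap_apply_of_ne_of_ne (Ne.symm hac) (Ne.symm hbc),
            Equiv.swap_apply_right, hgc]
        · rw [Equiv.swap_apply_of_ne_of_ne hxa hxb, Equiv.swap_apply_of_ne_of_ne hxa hxc,
            hgx x hxa hxb hxc]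
  have h3cyc : (Equiv.swap a c * Equiv.swap a b).IsThreeCycle :=
    Equiv.Perm.isThreeCycle_swap_mul_swap_same hac hab (Ne.symm hbc)
  have halt : alternatingGroup (G ⧸ M) ≤ (MulAction.toPermHom G (G ⧸ M)).range :=
    Equiv.Perm.alternatingGroup_le_of_isPreprimitive_of_isThreeCycle_mem hPprim h3cyc
      ⟨g3, h3c⟩
  -- faithfulness on the cosets
  have hfaith : ∀ g : G, (∀ q : G ⧸ M, g • q = q) → g = 1 := by
    intro g hg
    have hgc : g ∈ M.normalCore := by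
      show ∀ b : G, b * g * b⁻¹ ∈ M
      intro b
      have h1 : ((g * b⁻¹ : G) : G ⧸ M) = ((b⁻¹ : G) : G ⧸ M) := hg ((b⁻¹ : G) : G ⧸ M)
      have h2 : (g * b⁻¹)⁻¹ * b⁻¹ ∈ M := QuotientGroup.eq.1 h1
      have e : b * g * b⁻¹ = ((g * b⁻¹)⁻¹ * b⁻¹)⁻¹ := by group
      rw [e]
      exact M.inv_mem h2
    rwa [hcore, Subgroup.mem_bot] at hgc
  -- the element h'
  obtain ⟨m₀, hm₀M, hm₀⟩ : ∃ m₀ ∈ M, m₀ ∉ stabilizer G γ := by
    by_contra hcon
    push Not at hcon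
    exact hMne (le_antisymm hM hcon)
  have hm₀J : m₀ • γ ∈ J := by
    have := (hwd 1 m₀ hm₀M).2 (by rwa [one_smul])
    rwa [one_mul] at this
  obtain ⟨h', hfix, hh'⟩ := hflat γ (not_not.2 hγ) (m₀ • γ) (not_not.2 hm₀J)
  have hh'ne : h' • γ ≠ γ := by
    rw [hh']
    exact fun h => hm₀ (mem_stabilizer_iff.2 h)
  have hh'M : h' ∈ M := by
    have h1 : m₀⁻¹ * h' ∈ stabilizer G γ := by
      rw [mem_stabilizer_iff, mul_smul, hh', inv_smul_smul]
    have e : h' = m₀ * (m₀⁻¹ * h') := by group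
    rw [e]
    exact M.mul_mem hm₀M (hM h1)
  have hfixq : ∀ q ∈ J'ᶜ, h' • q = q := hfixc h' hfix
  have hfix1 : h' • ((1 : G) : G ⧸ M) = ((1 : G) : G ⧸ M) := by
    show ((h' * 1 : G) : G ⧸ M) = ((1 : G) : G ⧸ M)
    rw [QuotientGroup.eq]
    simpa using M.inv_mem hh'M
  -- three cosets outside J'
  have hcompl : 2 < (J'ᶜ).ncard := by
    rw [Set.ncard_compl]
    omega
  obtain ⟨q₀, q₁, q₂, hq₀, hq₁, hq₂, h01, h02, h12⟩ := (Set.two_lt_ncard_iff).1 hcompl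
  have h1J' : ((1 : G) : G ⧸ M) ∈ J' := (hmem 1).2 (by rwa [one_smul])
  have he0 : ((1 : G) : G ⧸ M) ≠ q₀ := fun h => hq₀ (h ▸ h1J')
  have he1 : ((1 : G) : G ⧸ M) ≠ q₁ := fun h => hq₁ (h ▸ h1J')
  have he2 : ((1 : G) : G ⧸ M) ≠ q₂ := fun h => hq₂ (h ▸ h1J')
  have hσalt : Equiv.swap ((1 : G) : G ⧸ M) q₀ * Equiv.swap q₁ q₂ ∈
      alternatingGroup (G ⧸ M) := by
    rw [Equiv.Perm.mem_alternatingGroup, Equiv.Perm.sign_mul, Equiv.Perm.sign_swap he0,
      Equiv.Perm.sign_swap h12]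
    rfl
  obtain ⟨x, hx⟩ := halt hσalt
  have hT : ∀ q, MulAction.toPermHom G (G ⧸ M) h' q = h' • q := fun q => rfl
  have hc1 : MulAction.toPermHom G (G ⧸ M) h' * Equiv.swap ((1 : G) : G ⧸ M) q₀ =
      Equiv.swap ((1 : G) : G ⧸ M) q₀ * MulAction.toPermHom G (G ⧸ M) h' := by
    rw [Equiv.mul_swap_eq_swap_mul, hT, hT, hfix1, hfixq q₀ hq₀]
  have hc2 : MulAction.toPermHom G (G ⧸ M) h' * Equiv.swap q₁ q₂ =
      Equiv.swap q₁ q₂ * MulAction.toPermHom G (G ⧸ M) h' := by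
    rw [Equiv.mul_swap_eq_swap_mul, hT, hT, hfixq q₁ hq₁, hfixq q₂ hq₂]
  have hcomm : MulAction.toPermHom G (G ⧸ M) h' *
      (Equiv.swap ((1 : G) : G ⧸ M) q₀ * Equiv.swap q₁ q₂) =
      (Equiv.swap ((1 : G) : G ⧸ M) q₀ * Equiv.swap q₁ q₂) *
        MulAction.toPermHom G (G ⧸ M) h' := by
    calc MulAction.toPermHom G (G ⧸ M) h' *
          (Equiv.swap ((1 : G) : G ⧸ M) q₀ * Equiv.swap q₁ q₂)
        = (MulAction.toPermHom G (G ⧸ M) h' * Equiv.swap ((1 : G) : G ⧸ M) q₀) *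
            Equiv.swap q₁ q₂ := (mul_assoc _ _ _).symm
      _ = (Equiv.swap ((1 : G) : G ⧸ M) q₀ * MulAction.toPermHom G (G ⧸ M) h') *
            Equiv.swap q₁ q₂ := by rw [hc1]
      _ = Equiv.swap ((1 : G) : G ⧸ M) q₀ * (MulAction.toPermHom G (G ⧸ M) h' *
            Equiv.swap q₁ q₂) := mul_assoc _ _ _
      _ = Equiv.swap ((1 : G) : G ⧸ M) q₀ * (Equiv.swap q₁ q₂ *
            MulAction.toPermHom G (G ⧸ M) h') := by rw [hc2]
      _ = (Equiv.swap ((1 : G) : G ⧸ M) q₀ * Equiv.swap q₁ q₂) *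
            MulAction.toPermHom G (G ⧸ M) h' := (mul_assoc _ _ _).symm
  have hxh : x * h' = h' * x := by
    have h1 : MulAction.toPermHom G (G ⧸ M) (x * h') =
        MulAction.toPermHom G (G ⧸ M) (h' * x) := by
      rw [map_mul, map_mul, hx, hcomm]
    have h2 : (h' * x)⁻¹ * (x * h') = 1 := by
      apply hfaith
      intro q
      have h4 : (x * h') • q = (h' * x) • q :=
        congrArg (fun τ : Equiv.Perm (G ⧸ M) => τ q) h1
      rw [mul_smul, h4, inv_smul_smul]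
    exact (inv_mul_eq_one.1 h2).symm
  have hx1 : x • ((1 : G) : G ⧸ M) = q₀ := by
    have h5 : x • ((1 : G) : G ⧸ M) =
        (Equiv.swap ((1 : G) : G ⧸ M) q₀ * Equiv.swap q₁ q₂) ((1 : G) : G ⧸ M) :=
      congrArg (fun τ : Equiv.Perm (G ⧸ M) => τ ((1 : G) : G ⧸ M)) hx
    rw [h5, Equiv.Perm.mul_apply, Equiv.swap_apply_of_ne_of_ne he1 he2, Equiv.swap_apply_left]
  have hxJ' : (x : G ⧸ M) ∉ J' := by
    have h7 : x • ((1 : G) : G ⧸ M) = (x : G ⧸ M) := by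
      show ((x * 1 : G) : G ⧸ M) = _
      rw [mul_one]
    rw [← h7, hx1]
    exact hq₀
  have hxγ : x • γ ∉ J := fun h => hxJ' ((hmem x).2 h)
  have h6 : h' • (x • γ) = x • γ := hfix _ hxγ
  rw [smul_smul, ← hxh, mul_smul] at h6
  exact hh'ne (smul_left_cancel x h6)

end Cfsg.Agent.Lib.Helper62.Marg
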