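import Cfsg.Agent.Lib.Helper32.BG10Basic

/-!
# B&G Section 10, piece Q11D: `npc_sub`

Subgroup version of `npc_core`: for a subgroup `X` of `G` whose `π`-core has `π'`-index and
nilpotent quotient, `O_π(X)` (as a subgroup of `G`) is a Hall `π`-subgroup of `X`, is normalized
by `N_G(X)`, and `X` has a nilpotent Hall `π'`-subgroup (Schur-Zassenhaus).
-/

set_option autoImplicit false

open Cfsg Cfsg.Agent.Lib.Helper32 Cfsg.Agent.Lib.Helper32.BG10

namespace Cfsg.Agent.Lib.Helper78.BG10

universe u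

variable {G : Type u} [Group G] [Finite G]

omit [Finite G] in
private theorem npc_conj_mem {X : Subgroup G} {g : G}
    (hg : g ∈ Subgroup.normalizer (X : Set G)) {y : G} (hy : y ∈ X) : g * y * g⁻¹ ∈ X :=
  (Subgroup.mem_normalizer_iff.mp hg y).mp hy

omit [Finite G] in
private theorem npc_conj_mem' {X : Subgroup G} {g : G}
    (hg : g ∈ Subgroup.normalizer (X : Set G)) {y : G} (hy : y ∈ X) : g⁻¹ * y * g ∈ X :=
  (Subgroup.mem_normalizer_iff''.mp hg y).mp hy

/-- conjugation by an element normalizing `X` maps `O_π(X)` into itself -/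
private theorem npc_cj_le (X : Subgroup G) (π : Set ℕ) {g : G}
    (hg : g ∈ Subgroup.normalizer (X : Set G)) :
    cj g (piCoreOf π X) ≤ piCoreOf π X := by
  classical
  have hT' : piCoreOf π X = (piCore π ↥X).map X.subtype := rfl
  have hTX : piCoreOf π X ≤ X := by
    rw [hT']
    exact Subgroup.map_subtype_le _
  have hcX : cj g (piCoreOf π X) ≤ X := by
    intro x hx
    rw [mem_cj] at hx
    have h2 := npc_conj_mem hg (hTX hx)
    have h3 : g * (g⁻¹ * x * g) * g⁻¹ = x := by group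
    rwa [h3] at h2
  have hUn : ((cj g (piCoreOf π X)).subgroupOf X).Normal := by
    constructor
    intro n hn x
    rw [Subgroup.mem_subgroupOf] at hn ⊢
    rw [mem_cj] at hn ⊢
    rw [hT'] at hn ⊢
    obtain ⟨t, ht, hte⟩ := Subgroup.mem_map.mp hn
    have hy : g⁻¹ * (x : G) * g ∈ X := npc_conj_mem' hg x.2
    refine Subgroup.mem_map.mpr
      ⟨(⟨g⁻¹ * (x : G) * g, hy⟩ : ↥X) * t * (⟨g⁻¹ * (x : G) * g, hy⟩ : ↥X)⁻¹, ?_, ?_⟩
    · exact (piCore_normal π ↥X).conj_mem t ht _
    · have hte' : (t : G) = g⁻¹ * (n : G) * g := hte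
      simp only [Subgroup.coe_subtype, Subgroup.coe_mul, Subgroup.coe_inv, hte']
      group
  have hcard : Nat.card ↥((cj g (piCoreOf π X)).subgroupOf X) = Nat.card ↥(piCore π ↥X) := by
    have h1 : Nat.card ↥((cj g (piCoreOf π X)).subgroupOf X) = Nat.card ↥(cj g (piCoreOf π X)) :=
      Nat.card_congr (Subgroup.subgroupOfEquivOfLe hcX).toEquiv
    rw [h1, card_cj, hT']
    exact Cfsg.Agent.Lib.Helper30.card_map_subtype _
  have hUle : (cj g (piCoreOf π X)).subgroupOf X ≤ piCore π ↥X := by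
    refine le_sSup ⟨hUn, ?_⟩
    intro p hp hdvd
    rw [hcard] at hdvd
    exact Cfsg.Agent.Lib.Helper66.isPi_piCore (G := ↥X) π p hp hdvd
  intro x hx
  have hxX : x ∈ X := hcX hx
  have h1 : (⟨x, hxX⟩ : ↥X) ∈ (cj g (piCoreOf π X)).subgroupOf X := by
    rw [Subgroup.mem_subgroupOf]
    exact hx
  rw [hT']
  exact Subgroup.mem_map.mpr ⟨⟨x, hxX⟩, hUle h1, rfl⟩

theorem npc_sub (X : Subgroup G) (π : Set ℕ)
    (hc : (∀ p : ℕ, p.Prime → p ∈ π → ¬ p ∣ (piCore π ↥X).index) ∧
      Group.IsNilpotent (↥X ⧸ piCore π ↥X)) :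
    (∀ p : ℕ, p.Prime → p ∈ π → ¬ p ∣ (piCoreOf π X).relIndex X) ∧
      Subgroup.normalizer (X : Set G) ≤ Subgroup.normalizer ((piCoreOf π X : Subgroup G) : Set G) ∧
      ∃ H : Subgroup G, IsPiHallOf {q | q.Prime ∧ q ∉ π} H X ∧ Group.IsNilpotent H := by
  classical
  obtain ⟨hidx, hnil⟩ := hc
  have hT' : piCoreOf π X = (piCore π ↥X).map X.subtype := rfl
  have hpi : ∀ p : ℕ, p.Prime → p ∣ Nat.card ↥(piCore π ↥X) → p ∈ π :=
    Cfsg.Agent.Lib.Helper66.isPi_piCore (G := ↥X) π
  -- (1) the relative index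
  have hrel : (piCoreOf π X).relIndex X = (piCore π ↥X).index := by
    rw [Subgroup.relIndex, hT', Subgroup.subgroupOf,
      Subgroup.comap_map_eq_self_of_injective X.subtype_injective]
  refine ⟨?_, ?_, ?_⟩
  · intro p hp hpπ
    rw [hrel]
    exact hidx p hp hpπ
  · -- (2) the normalizer
    intro g hg
    rw [← cj_eq_self_iff]
    refine Subgroup.eq_of_le_of_card_ge (npc_cj_le X π hg) ?_
    rw [card_cj]
  · -- (3) the complement
    have hcop : (Nat.card ↥(piCore π ↥X)).Coprime (piCore π ↥X).index := by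
      by_contra hcon
      obtain ⟨p, hp, h1, h2⟩ := Nat.Prime.not_coprime_iff_dvd.mp hcon
      exact hidx p hp (hpi p hp h1) h2
    obtain ⟨H0, hH0⟩ := Subgroup.exists_right_complement'_of_coprime hcop
    -- `H0` embeds in the nilpotent quotient
    have hinj : Function.Injective
        ((QuotientGroup.mk' (piCore π ↥X)).comp H0.subtype) := by
      rw [injective_iff_map_eq_one]
      intro x hx
      have h1 : (x : ↥X) ∈ piCore π ↥X := by
        have h2 : QuotientGroup.mk' (piCore π ↥X) (x : ↥X) = 1 := hx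
        exact (QuotientGroup.eq_one_iff _).mp h2
      have h3 : (x : ↥X) ∈ piCore π ↥X ⊓ H0 := ⟨h1, x.2⟩
      rw [hH0.disjoint.eq_bot, Subgroup.mem_bot] at h3
      exact Subtype.ext h3
    have hnil0 : Group.IsNilpotent ↥H0 := by
      have e := MonoidHom.ofInjective hinj
      exact Group.nilpotent_of_mulEquiv e.symm
    have hnilH : Group.IsNilpotent ↥(H0.map X.subtype) :=
      Group.nilpotent_of_mulEquiv (H0.equivMapOfInjective X.subtype X.subtype_injective)
    have hcardH : Nat.card ↥(H0.map X.subtype) = (piCore π ↥X).index := by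
      rw [Cfsg.Agent.Lib.Helper30.card_map_subtype]
      exact hH0.symm.index_eq_card.symm
    have hrelH : (H0.map X.subtype).relIndex X = Nat.card ↥(piCore π ↥X) := by
      rw [Subgroup.relIndex, Subgroup.subgroupOf,
        Subgroup.comap_map_eq_self_of_injective X.subtype_injective]
      exact hH0.index_eq_card
    refine ⟨H0.map X.subtype, ⟨Subgroup.map_subtype_le _, ?_, ?_⟩, hnilH⟩
    · intro p hp hdvd
      rw [hcardH] at hdvd
      exact ⟨hp, fun hpπ => hidx p hp hpπ hdvd⟩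
    · intro p hp hpmem hdvd
      rw [hrelH] at hdvd
      exact hpmem.2 (hpi p hp hdvd)

end Cfsg.Agent.Lib.Helper78.BG10
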