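import Mathlib
import Cfsg.Agent.Lib.Helper69.BGDefs
import Cfsg.Agent.Lib.Helper1.Hall

/-!
# Piece QUOT of the S3913 project (helper69): conjugacy through a quotient
-/

set_option autoImplicit false

namespace Cfsg.Agent.Lib.Helper78.BG

open Cfsg.Agent.Lib.Helper69.BG

universe u

theorem eq_map_conj_of_le {G : Type u} [Group G] [Finite G] (A B : Subgroup G)
    (hc : Nat.card ↥A = Nat.card ↥B) (g : G)
    (hle : B ≤ A.map (MulAut.conj g).toMonoidHom) : B = A.map (MulAut.conj g).toMonoidHom :=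
  Subgroup.eq_of_le_of_card_ge hle
    (by rw [Subgroup.card_map_of_injective (MulAut.conj g).injective, hc])

theorem exists_of_map_mk_eq {G : Type u} [Group G] (N : Subgroup G) [N.Normal]
    (A B : Subgroup G) (g : G)
    (h : B.map (QuotientGroup.mk' N) =
      (A.map (QuotientGroup.mk' N)).map (MulAut.conj (QuotientGroup.mk' N g)).toMonoidHom)
    {x : G} (hx : x ∈ B) : ∃ a ∈ A, (g * a * g⁻¹)⁻¹ * x ∈ N := by
  have h1 : QuotientGroup.mk' N x ∈ B.map (QuotientGroup.mk' N) := Subgroup.mem_map_of_mem _ hx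
  rw [h] at h1
  obtain ⟨y, hy, hyx⟩ := Subgroup.mem_map.1 h1
  obtain ⟨a, ha, rfl⟩ := Subgroup.mem_map.1 hy
  refine ⟨a, ha, ?_⟩
  have h2 : QuotientGroup.mk' N (g * a * g⁻¹) = QuotientGroup.mk' N x := by
    rw [← hyx, MulEquiv.coe_toMonoidHom, MulAut.conj_apply, map_mul, map_mul, map_inv]
  exact QuotientGroup.eq.1 h2

theorem conj_of_quotient {G : Type u} [Group G] [Finite G] (hsol : IsSolvable G)
    (N : Subgroup G) [N.Normal] (hQ : BP (G ⧸ N)) (A B : Subgroup G)
    (hc : Nat.card ↥A = Nat.card ↥B)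
    (h : (N ≤ A ∧ N ≤ B) ∨ (Nat.card ↥N).Coprime (Nat.card ↥A)) :
    ∃ g : G, B = A.map (MulAut.conj g).toMonoidHom := by
  classical
  have hsurj : Function.Surjective (QuotientGroup.mk' N) := QuotientGroup.mk'_surjective N
  rcases h with ⟨hNA, hNB⟩ | hcop
  · -- case 1
    have hidx : A.index = B.index := by
      have hA := A.card_mul_index
      have hB := B.card_mul_index
      rw [hc, ← hB] at hA
      exact Nat.eq_of_mul_eq_mul_left Nat.card_pos hA
    have hidx' : (A.map (QuotientGroup.mk' N)).index = (B.map (QuotientGroup.mk' N)).index := by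
      rw [Subgroup.index_map_eq A hsurj (by rw [QuotientGroup.ker_mk']; exact hNA),
        Subgroup.index_map_eq B hsurj (by rw [QuotientGroup.ker_mk']; exact hNB), hidx]
    have hcard : Nat.card ↥(A.map (QuotientGroup.mk' N)) =
        Nat.card ↥(B.map (QuotientGroup.mk' N)) := by
      have hA := (A.map (QuotientGroup.mk' N)).card_mul_index
      have hB := (B.map (QuotientGroup.mk' N)).card_mul_index
      rw [hidx', ← hB] at hA
      exact Nat.eq_of_mul_eq_mul_right
        (Nat.pos_of_ne_zero Subgroup.index_ne_zero_of_finite) hA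
    obtain ⟨q, hq⟩ := hQ _ _ hcard
    obtain ⟨g, rfl⟩ := hsurj q
    refine ⟨g, eq_map_conj_of_le A B hc g ?_⟩
    intro x hx
    obtain ⟨a, ha, hn⟩ := exists_of_map_mk_eq N A B g hq hx
    rw [Subgroup.mem_map]
    refine ⟨a * (g⁻¹ * ((g * a * g⁻¹)⁻¹ * x) * g), A.mul_mem ha (hNA ?_), ?_⟩
    · have := (inferInstance : N.Normal).conj_mem _ hn g⁻¹
      simpa using this
    · rw [MulEquiv.coe_toMonoidHom, MulAut.conj_apply]
      group
  · -- case 2
    have hcopB : (Nat.card ↥N).Coprime (Nat.card ↥B) := hc ▸ hcop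
    have hAN : A ⊓ N = ⊥ := (Subgroup.disjoint_of_coprime_natCard hcop.symm).eq_bot
    have hBN : B ⊓ N = ⊥ := (Subgroup.disjoint_of_coprime_natCard hcopB.symm).eq_bot
    have hcardmap : ∀ C : Subgroup G, C ⊓ N = ⊥ →
        Nat.card ↥(C.map (QuotientGroup.mk' N)) = Nat.card ↥C := by
      intro C hC
      have hinj : Function.Injective ((QuotientGroup.mk' N).subgroupMap C) := by
        rw [injective_iff_map_eq_one]
        intro a ha
        have ha' : QuotientGroup.mk' N (a : G) = 1 := congrArg Subtype.val ha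
        have h1 : (a : G) ∈ N := by
          rw [← QuotientGroup.eq_one_iff]
          exact ha'
        have h2 : (a : G) ∈ C ⊓ N := ⟨a.2, h1⟩
        rw [hC, Subgroup.mem_bot] at h2
        exact Subtype.ext h2
      exact (Nat.card_congr (Equiv.ofBijective _
        ⟨hinj, MonoidHom.subgroupMap_surjective (QuotientGroup.mk' N) C⟩)).symm
    have hcard : Nat.card ↥(A.map (QuotientGroup.mk' N)) =
        Nat.card ↥(B.map (QuotientGroup.mk' N)) := by
      rw [hcardmap A hAN, hcardmap B hBN, hc]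
    obtain ⟨q, hq⟩ := hQ _ _ hcard
    obtain ⟨g, rfl⟩ := hsurj q
    have hcA' : Nat.card ↥(A.map (MulAut.conj g).toMonoidHom) = Nat.card ↥A :=
      Subgroup.card_map_of_injective (MulAut.conj g).injective
    have hA'N : A.map (MulAut.conj g).toMonoidHom ⊓ N = ⊥ :=
      (Subgroup.disjoint_of_coprime_natCard (by rw [hcA']; exact hcop.symm)).eq_bot
    have hBD : B ≤ A.map (MulAut.conj g).toMonoidHom ⊔ N := by
      intro x hx
      obtain ⟨a, ha, hn⟩ := exists_of_map_mk_eq N A B g hq hx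
      have hx' : x = (g * a * g⁻¹) * ((g * a * g⁻¹)⁻¹ * x) := by group
      rw [hx']
      exact Subgroup.mul_mem _
        (Subgroup.mem_sup_left (Subgroup.mem_map.2 ⟨a, ha, by simp [MulAut.conj_apply]⟩))
        (Subgroup.mem_sup_right hn)
    have hA'D : A.map (MulAut.conj g).toMonoidHom ≤ A.map (MulAut.conj g).toMonoidHom ⊔ N :=
      le_sup_left
    have hND : N ≤ A.map (MulAut.conj g).toMonoidHom ⊔ N := le_sup_right
    have hcardD : Nat.card ↥(A.map (MulAut.conj g).toMonoidHom ⊔ N) =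
        Nat.card ↥A * Nat.card ↥N := by
      have h1 : N.relIndex (A.map (MulAut.conj g).toMonoidHom ⊔ N) =
          Nat.card ↥(A.map (MulAut.conj g).toMonoidHom) := by
        rw [Subgroup.relIndex_sup_right, ← Subgroup.inf_relIndex_left, hA'N,
          Subgroup.relIndex_bot_left]
      have h2 := Subgroup.card_mul_index
        (N.subgroupOf (A.map (MulAut.conj g).toMonoidHom ⊔ N))
      rw [Nat.card_congr (Subgroup.subgroupOfEquivOfLe hND).toEquiv] at h2
      have h3 : (N.subgroupOf (A.map (MulAut.conj g).toMonoidHom ⊔ N)).index =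
          Nat.card ↥(A.map (MulAut.conj g).toMonoidHom) := h1
      rw [h3, hcA'] at h2
      rw [← h2, mul_comm]
    have hsol' : Group.IsSolvable G := hsol
    obtain ⟨d, hd⟩ := Cfsg.Agent.Lib.Helper1.hall_conj
      (G := ↥(A.map (MulAut.conj g).toMonoidHom ⊔ N)) (Nat.card ↥A) (Nat.card ↥N) hcardD
      hcop.symm
      ((A.map (MulAut.conj g).toMonoidHom).subgroupOf (A.map (MulAut.conj g).toMonoidHom ⊔ N))
      (B.subgroupOf (A.map (MulAut.conj g).toMonoidHom ⊔ N))
      (by rw [Nat.card_congr (Subgroup.subgroupOfEquivOfLe hA'D).toEquiv, hcA'])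
      (by rw [Nat.card_congr (Subgroup.subgroupOfEquivOfLe hBD).toEquiv, hc])
    refine ⟨(d : G) * g, eq_map_conj_of_le A B hc _ ?_⟩
    intro x hx
    have hxD : (⟨x, hBD hx⟩ : ↥(A.map (MulAut.conj g).toMonoidHom ⊔ N)) ∈
        B.subgroupOf (A.map (MulAut.conj g).toMonoidHom ⊔ N) := Subgroup.mem_subgroupOf.2 hx
    rw [← hd] at hxD
    obtain ⟨s, hs, hsx⟩ := (Subgroup.mem_smul_pointwise_iff_exists _ _ _).1 hxD
    have hs' : (s : G) ∈ A.map (MulAut.conj g).toMonoidHom := Subgroup.mem_subgroupOf.1 hs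
    obtain ⟨a, ha, has⟩ := Subgroup.mem_map.1 hs'
    have hx1 : x = (d : G) * (s : G) * (d : G)⁻¹ := by
      have h5 : MulAut.conj d • s = d * s * d⁻¹ := rfl
      rw [h5] at hsx
      exact (congrArg Subtype.val hsx).symm
    rw [Subgroup.mem_map]
    refine ⟨a, ha, ?_⟩
    rw [hx1, ← has]
    simp [MulAut.conj_apply, mul_assoc]

end Cfsg.Agent.Lib.Helper78.BG
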