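import Cfsg.Prelude.Def_BaumannBlocks
import Mathlib

/-!
# S2984, piece JD-OCP (helper78): `omegaOneCenter p X`, `pCoreOf p K` and `pCore p G`
(general-`p` versions of `Cfsg/Agent/Lib/Helper82/JcOCPC.lean`).
-/

set_option autoImplicit false

namespace Cfsg.Agent.Lib.Helper78.Jd

variable {G : Type*} [Group G]

/-- the central elements of `X` with trivial `p`-th power, as a subgroup -/
def ocpSub (p : ℕ) (X : Subgroup G) : Subgroup G where
  carrier := {z | z ∈ X ∧ (∀ x ∈ X, z * x = x * z) ∧ z ^ p = 1}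
  mul_mem' := by
    rintro a b ⟨haX, hac, ha2⟩ ⟨hbX, hbc, hb2⟩
    refine ⟨X.mul_mem haX hbX, ?_, ?_⟩
    · intro x hx
      calc a * b * x = a * (b * x) := by group
        _ = a * (x * b) := by rw [hbc x hx]
        _ = (a * x) * b := by group
        _ = (x * a) * b := by rw [hac x hx]
        _ = x * (a * b) := by group
    · have hab : Commute a b := hac b hbX
      rw [hab.mul_pow, ha2, hb2, one_mul]
  one_mem' := ⟨X.one_mem, fun x _ => by simp, by simp⟩
  inv_mem' := by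
    rintro a ⟨haX, hac, ha2⟩
    refine ⟨X.inv_mem haX, ?_, ?_⟩
    · intro x hx
      have h := hac x hx
      calc a⁻¹ * x = a⁻¹ * (x * a) * a⁻¹ := by group
        _ = a⁻¹ * (a * x) * a⁻¹ := by rw [h]
        _ = x * a⁻¹ := by group
    · rw [inv_pow, ha2, inv_one]

theorem ocp_eq_ocpSub (p : ℕ) (X : Subgroup G) : Cfsg.omegaOneCenter p X = ocpSub p X := by
  apply le_antisymm
  · unfold Cfsg.omegaOneCenter Cfsg.omegaOne
    rw [Subgroup.closure_le]
    rintro x ⟨hx, hx2⟩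
    rw [Subgroup.mem_inf] at hx
    refine ⟨hx.1, ?_, hx2⟩
    intro y hy
    exact (Subgroup.mem_centralizer_iff.1 hx.2 y hy).symm
  · rintro z ⟨hzX, hzc, hz2⟩
    unfold Cfsg.omegaOneCenter Cfsg.omegaOne
    apply Subgroup.subset_closure
    exact ⟨Subgroup.mem_inf.2 ⟨hzX, Subgroup.mem_centralizer_iff.2 fun h hh => (hzc h hh).symm⟩,
      hz2⟩

theorem ocp_le (p : ℕ) (X : Subgroup G) : Cfsg.omegaOneCenter p X ≤ X := by
  rw [ocp_eq_ocpSub]
  exact fun z hz => hz.1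

theorem ocp_comm (p : ℕ) (X : Subgroup G) (z : G) (hz : z ∈ Cfsg.omegaOneCenter p X) (x : G)
    (hx : x ∈ X) : z * x = x * z := by
  rw [ocp_eq_ocpSub] at hz
  exact hz.2.1 x hx

theorem ocp_pow (p : ℕ) (X : Subgroup G) (z : G) (hz : z ∈ Cfsg.omegaOneCenter p X) :
    z ^ p = 1 := by
  rw [ocp_eq_ocpSub] at hz
  exact hz.2.2

theorem ocp_mem (p : ℕ) (X : Subgroup G) (z : G) (hz : z ∈ X) (hc : ∀ x ∈ X, z * x = x * z)
    (hp : z ^ p = 1) : z ∈ Cfsg.omegaOneCenter p X := by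
  rw [ocp_eq_ocpSub]
  exact ⟨hz, hc, hp⟩

/-- if every `g ∈ N(K)` conjugates `H` into itself then `N(K) ≤ N(H)` -/
theorem ocp_normalizer_le_of_conj_mem (K H : Subgroup G)
    (h : ∀ g ∈ Subgroup.normalizer (K : Set G), ∀ x ∈ H, g * x * g⁻¹ ∈ H) :
    Subgroup.normalizer (K : Set G) ≤ Subgroup.normalizer (H : Set G) := by
  intro g hg
  rw [Subgroup.mem_normalizer_iff]
  intro x
  refine ⟨fun hx => h g hg x hx, fun hx => ?_⟩
  have := h g⁻¹ (inv_mem hg) _ hx
  simpa [mul_assoc] using this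

theorem ocp_normalizer (p : ℕ) (X : Subgroup G) :
    Subgroup.normalizer (X : Set G) ≤ Subgroup.normalizer (Cfsg.omegaOneCenter p X : Set G) := by
  apply ocp_normalizer_le_of_conj_mem
  intro g hg z hz
  rw [ocp_eq_ocpSub] at hz ⊢
  obtain ⟨hzX, hzc, hz2⟩ := hz
  refine ⟨(Subgroup.mem_normalizer_iff.1 hg z).1 hzX, ?_, ?_⟩
  · intro x hx
    have hx' : g⁻¹ * x * g ∈ X := by
      have := (Subgroup.mem_normalizer_iff.1 (inv_mem hg) x).1 hx
      simpa using this
    have h := hzc _ hx'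
    calc g * z * g⁻¹ * x = g * (z * (g⁻¹ * x * g)) * g⁻¹ := by group
      _ = g * ((g⁻¹ * x * g) * z) * g⁻¹ := by rw [h]
      _ = x * (g * z * g⁻¹) := by group
  · rw [conj_pow, hz2]; group

theorem pcp_le (p : ℕ) (K : Subgroup G) : Cfsg.pCoreOf p K ≤ K :=
  Subgroup.map_subtype_le _

theorem pcore_normal_aux (p : ℕ) (H : Type*) [Group H] : (Cfsg.pCore p H).Normal :=
  Subgroup.sSup_normal _ (fun _ hK => hK.1)

theorem pcore_isPGroup_aux (p : ℕ) (H : Type*) [Group H] : IsPGroup p (Cfsg.pCore p H) :=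
  Sylow.sSup_of_normal _ (fun _ hK => hK.2) (fun _ hK => hK.1)

theorem pcp_pgroup [Finite G] (p : ℕ) [Fact p.Prime] (K : Subgroup G) :
    IsPGroup p ↥(Cfsg.pCoreOf p K) :=
  (pcore_isPGroup_aux p K).map _

/-- conjugation by an element of the normalizer, as an automorphism of `K` -/
def ocpConjNorm (K : Subgroup G) (g : G) (hg : g ∈ Subgroup.normalizer (K : Set G)) : K ≃* K where
  toFun x := ⟨g * x * g⁻¹, (Subgroup.mem_normalizer_iff.1 hg x).1 x.2⟩
  invFun x := ⟨g⁻¹ * x * g, by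
    have := (Subgroup.mem_normalizer_iff.1 (inv_mem hg) x).1 x.2
    simpa using this⟩
  left_inv x := by
    apply Subtype.ext
    simp [mul_assoc]
  right_inv x := by
    apply Subtype.ext
    simp [mul_assoc]
  map_mul' x y := by
    apply Subtype.ext
    simp [mul_assoc]

theorem pcp_normalizer (p : ℕ) (K : Subgroup G) :
    Subgroup.normalizer (K : Set G) ≤ Subgroup.normalizer (Cfsg.pCoreOf p K : Set G) := by
  apply ocp_normalizer_le_of_conj_mem
  intro g hg x hx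
  unfold Cfsg.pCoreOf at hx ⊢
  obtain ⟨y, hy, rfl⟩ := hx
  have hn : (Cfsg.pCore p K).Normal := pcore_normal_aux p K
  have hle : (Cfsg.pCore p K).map (ocpConjNorm K g hg).toMonoidHom ≤ Cfsg.pCore p K :=
    le_sSup ⟨hn.map _ (ocpConjNorm K g hg).surjective, (pcore_isPGroup_aux p K).map _⟩
  refine ⟨ocpConjNorm K g hg y, hle (Subgroup.mem_map_of_mem _ hy), rfl⟩

theorem pcp_max [Finite G] (p : ℕ) [Fact p.Prime] (K N : Subgroup G) (hNK : N ≤ K)
    (hKN : K ≤ Subgroup.normalizer (N : Set G)) (hN : IsPGroup p ↥N) : N ≤ Cfsg.pCoreOf p K := by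
  have hn : (N.subgroupOf K).Normal := by
    refine ⟨fun n hn g => ?_⟩
    rw [Subgroup.mem_subgroupOf] at hn ⊢
    exact (Subgroup.mem_normalizer_iff.1 (hKN g.2) n).1 hn
  have hp : IsPGroup p ↥(N.subgroupOf K) := hN.comap_subtype
  have hle : N.subgroupOf K ≤ Cfsg.pCore p ↥K := le_sSup ⟨hn, hp⟩
  intro x hx
  exact ⟨⟨x, hNK hx⟩, hle (Subgroup.mem_subgroupOf.mpr hx), rfl⟩

theorem pcore_pgroup [Finite G] (p : ℕ) [Fact p.Prime] : IsPGroup p ↥(Cfsg.pCore p G) :=
  pcore_isPGroup_aux p G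

theorem pcore_normal (p : ℕ) : (Cfsg.pCore p G).Normal := pcore_normal_aux p G

theorem pcore_le_sylow [Finite G] (p : ℕ) [Fact p.Prime] (T : Sylow p G) :
    Cfsg.pCore p G ≤ (T : Subgroup G) := by
  have hRp : IsPGroup p ↥(Cfsg.pCore p G) := pcore_pgroup p
  have hRn : (Cfsg.pCore p G).Normal := pcore_normal p
  obtain ⟨Q, hQ⟩ := hRp.exists_le_sylow
  obtain ⟨g, hg⟩ := MulAction.exists_smul_eq G Q T
  intro x hx
  have h1 : g⁻¹ * x * g ∈ (Q : Subgroup G) := by
    apply hQ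
    have := hRn.conj_mem x hx g⁻¹
    simpa using this
  rw [← hg, Sylow.coe_subgroup_smul, Subgroup.mem_pointwise_smul_iff_inv_smul_mem]
  simpa [MulAut.smul_def, MulAut.conj_apply] using h1

end Cfsg.Agent.Lib.Helper78.Jd
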