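import Cfsg.Prelude.Def_BaumannBlocks
import Mathlib

/-!
# S2984, piece JD-THP (helper78): an element `z` of `T` with `z ^ p = 1` that centralizes the
Thompson subgroup `J(T)` lies in `J(T)`.
-/

set_option autoImplicit false

namespace Cfsg.Agent.Lib.Helper78.Jd

variable {G : Type*} [Group G]

/-- `A` is an elementary abelian `p`-subgroup of `S` of largest order (inside the ambient group). -/
def IsMaxEAp (p : ℕ) (S A : Subgroup G) : Prop :=
  A ≤ S ∧ (∀ a ∈ A, ∀ b ∈ A, a * b = b * a) ∧ (∀ a ∈ A, a ^ p = 1) ∧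
    ∀ B : Subgroup G, B ≤ S → (∀ a ∈ B, ∀ b ∈ B, a * b = b * a) → (∀ a ∈ B, a ^ p = 1) →
      Nat.card B ≤ Nat.card A

theorem thp_ea_of (p : ℕ) (S A : Subgroup G) (hAS : A ≤ S)
    (hc : ∀ a ∈ A, ∀ b ∈ A, a * b = b * a) (hp : ∀ a ∈ A, a ^ p = 1) :
    Cfsg.IsElementaryAbelian p (A.subgroupOf S) ∧ Nat.card (A.subgroupOf S) = Nat.card A := by
  refine ⟨⟨⟨⟨fun x y => ?_⟩⟩, fun b hb => ?_⟩, ?_⟩
  · apply Subtype.ext
    apply Subtype.ext
    exact hc x.1.1 (Subgroup.mem_subgroupOf.mp x.2) y.1.1 (Subgroup.mem_subgroupOf.mp y.2)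
  · apply Subtype.ext
    have h := hp b.1 (Subgroup.mem_subgroupOf.mp hb)
    simpa using h
  · have h := Subgroup.card_map_of_injective (K := A.subgroupOf S) (Subgroup.subtype_injective S)
    rw [Subgroup.map_subgroupOf_eq_of_le hAS] at h
    exact h.symm

theorem thp_of_ea (p : ℕ) (S : Subgroup G) (B : Subgroup ↥S) (hB : Cfsg.IsElementaryAbelian p B) :
    B.map S.subtype ≤ S ∧ (∀ a ∈ B.map S.subtype, ∀ b ∈ B.map S.subtype, a * b = b * a) ∧
      (∀ a ∈ B.map S.subtype, a ^ p = 1) ∧ Nat.card (B.map S.subtype) = Nat.card B := by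
  obtain ⟨hc, h2⟩ := hB
  refine ⟨Subgroup.map_subtype_le B, ?_, ?_,
    Subgroup.card_map_of_injective (Subgroup.subtype_injective S)⟩
  · rintro _ ⟨x, hx, rfl⟩ _ ⟨y, hy, rfl⟩
    have h := hc.is_comm.comm (⟨x, hx⟩ : ↥B) ⟨y, hy⟩
    have h' : x * y = y * x := congrArg Subtype.val h
    exact congrArg Subtype.val h'
  · rintro _ ⟨x, hx, rfl⟩
    have h := h2 x hx
    have h' := congrArg Subtype.val h
    simpa using h'

theorem thp_mem_of (p : ℕ) (S A : Subgroup G) (hA : IsMaxEAp p S A) :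
    A.subgroupOf S ∈ Cfsg.maxElementaryAbelianSubgroups p ↥S := by
  obtain ⟨hAS, hc, h2, hmax⟩ := hA
  obtain ⟨hea, hcard⟩ := thp_ea_of p S A hAS hc h2
  refine ⟨hea, fun B hB => ?_⟩
  obtain ⟨h1, h3, h4, h5⟩ := thp_of_ea p S B hB
  rw [hcard, ← h5]
  exact hmax _ h1 h3 h4

theorem thp_exists [Finite G] (p : ℕ) (S : Subgroup G) : ∃ A : Subgroup G, IsMaxEAp p S A := by
  have hne : Nonempty {B : Subgroup G // B ≤ S ∧ (∀ a ∈ B, ∀ b ∈ B, a * b = b * a) ∧
      (∀ a ∈ B, a ^ p = 1)} := by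
    refine ⟨⟨⊥, bot_le, ?_, ?_⟩⟩
    · intro a ha b hb
      rw [Subgroup.mem_bot.mp ha, Subgroup.mem_bot.mp hb]
    · intro a ha
      rw [Subgroup.mem_bot.mp ha, one_pow]
  obtain ⟨⟨A, hAS, hc, h2⟩, hmax⟩ := Finite.exists_max
    (fun B : {B : Subgroup G // B ≤ S ∧ (∀ a ∈ B, ∀ b ∈ B, a * b = b * a) ∧
      (∀ a ∈ B, a ^ p = 1)} => Nat.card B.1)
  exact ⟨A, hAS, hc, h2, fun B hBS hBc hB2 => hmax ⟨B, hBS, hBc, hB2⟩⟩

theorem thp_le (p : ℕ) (S A : Subgroup G) (hA : IsMaxEAp p S A) :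
    A ≤ Cfsg.thompsonSubgroupOf p S := by
  have h1 := thp_mem_of p S A hA
  have h2 : A.subgroupOf S ≤ Cfsg.thompsonSubgroup p ↥S := le_sSup h1
  have h3 := Subgroup.map_mono (f := S.subtype) h2
  rw [Subgroup.map_subgroupOf_eq_of_le hA.1] at h3
  exact h3

theorem thp_central [Finite G] (p : ℕ) (S A : Subgroup G) (hA : IsMaxEAp p S A) (z : G)
    (hzS : z ∈ S) (hzA : ∀ x ∈ A, z * x = x * z) (hz2 : z ^ p = 1) : z ∈ A := by
  obtain ⟨hAS, hc, h2, hmax⟩ := hA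
  have hX : ∀ x ∈ ((A : Set G) ∪ {z}), ∀ y ∈ ((A : Set G) ∪ {z}), x * y = y * x := by
    rintro x (hx | hx) y (hy | hy)
    · exact hc x hx y hy
    · rw [Set.mem_singleton_iff.mp hy]; exact (hzA x hx).symm
    · rw [Set.mem_singleton_iff.mp hx]; exact hzA y hy
    · rw [Set.mem_singleton_iff.mp hx, Set.mem_singleton_iff.mp hy]
  have hBc : ∀ a ∈ Subgroup.closure ((A : Set G) ∪ {z}),
      ∀ b ∈ Subgroup.closure ((A : Set G) ∪ {z}), a * b = b * a := by
    intro a ha b hb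
    letI := Subgroup.closureCommGroupOfComm hX
    have h := mul_comm (⟨a, ha⟩ : ↥(Subgroup.closure ((A : Set G) ∪ {z}))) ⟨b, hb⟩
    exact congrArg Subtype.val h
  have hB2 : ∀ a ∈ Subgroup.closure ((A : Set G) ∪ {z}), a ^ p = 1 := by
    intro a ha
    induction ha using Subgroup.closure_induction with
    | mem x hx =>
      rcases hx with hx | hx
      · exact h2 x hx
      · rw [Set.mem_singleton_iff.mp hx]; exact hz2
    | one => rw [one_pow]
    | mul x y hx hy ihx ihy =>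
      have hxy : Commute x y := hBc x hx y hy
      rw [hxy.mul_pow, ihx, ihy, one_mul]
    | inv x hx ihx =>
      rw [inv_pow, ihx, inv_one]
  have hBS : Subgroup.closure ((A : Set G) ∪ {z}) ≤ S := by
    rw [Subgroup.closure_le]
    rintro x (hx | hx)
    · exact hAS hx
    · rw [Set.mem_singleton_iff.mp hx]; exact hzS
  have hAB : A ≤ Subgroup.closure ((A : Set G) ∪ {z}) :=
    fun x hx => Subgroup.subset_closure (Or.inl hx)
  have heq : A = Subgroup.closure ((A : Set G) ∪ {z}) :=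
    Subgroup.eq_of_le_of_card_ge hAB (hmax _ hBS hBc hB2)
  rw [heq]
  exact Subgroup.subset_closure (Or.inr rfl)

theorem thp_mem_of_central {G : Type*} [Group G] [Finite G] (p : ℕ) (T : Subgroup G) (z : G)
    (hzT : z ∈ T) (hzp : z ^ p = 1)
    (hc : ∀ x ∈ Cfsg.thompsonSubgroupOf p T, z * x = x * z) :
    z ∈ Cfsg.thompsonSubgroupOf p T := by
  obtain ⟨A, hA⟩ := thp_exists p T
  have hAJ := thp_le p T A hA
  exact hAJ (thp_central p T A hA z hzT (fun x hx => hc x (hAJ hx)) hzp)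

end Cfsg.Agent.Lib.Helper78.Jd
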