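import Mathlib

/-!
# Piece GLUE of the S3265 project (helper6): connectedness and diameter of the odd-product graph
-/

set_option autoImplicit false

namespace Cfsg.Agent.Lib.Helper78.OddGr

theorem graph_glue {α : Type*} [Group α] [Finite α] (t : α)
    (hU : ∀ x y : α, IsConj t x → IsConj t y →
      ∃ z : α, IsConj t z ∧ Odd (orderOf (x * z)) ∧ Odd (orderOf (z * y)))
    (hL : ∃ x y : α, IsConj t x ∧ IsConj t y ∧ x ≠ y ∧ ¬ Odd (orderOf (x * y)) ∧
      ¬ Odd (orderOf (y * x))) :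
    (SimpleGraph.fromRel fun x y : {x : α // IsConj t x} =>
        Odd (orderOf (x.1 * y.1))).Connected ∧
      (SimpleGraph.fromRel fun x y : {x : α // IsConj t x} =>
        Odd (orderOf (x.1 * y.1))).diam = 2 := by
  classical
  set G := SimpleGraph.fromRel fun x y : {x : α // IsConj t x} =>
        Odd (orderOf (x.1 * y.1)) with hG
  have hadj : ∀ u v : {x : α // IsConj t x}, G.Adj u v ↔
      u ≠ v ∧ (Odd (orderOf (u.1 * v.1)) ∨ Odd (orderOf (v.1 * u.1))) := by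
    intro u v
    rw [hG, SimpleGraph.fromRel_adj]
  have hwalk : ∀ u v : {x : α // IsConj t x}, ∃ p : G.Walk u v, p.length ≤ 2 := by
    intro u v
    by_cases huv : u = v
    · subst huv
      exact ⟨SimpleGraph.Walk.nil, by simp⟩
    · obtain ⟨z, hz, h1, h2⟩ := hU u.1 v.1 u.2 v.2
      by_cases hzu : z = u.1
      · rw [hzu] at h2
        have ha : G.Adj u v := (hadj u v).2 ⟨huv, Or.inl h2⟩
        exact ⟨SimpleGraph.Walk.cons ha SimpleGraph.Walk.nil, by simp⟩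
      · by_cases hzv : z = v.1
        · rw [hzv] at h1
          have ha : G.Adj u v := (hadj u v).2 ⟨huv, Or.inl h1⟩
          exact ⟨SimpleGraph.Walk.cons ha SimpleGraph.Walk.nil, by simp⟩
        · have ha1 : G.Adj u ⟨z, hz⟩ :=
            (hadj u ⟨z, hz⟩).2 ⟨fun h => hzu (congrArg Subtype.val h).symm, Or.inl h1⟩
          have ha2 : G.Adj ⟨z, hz⟩ v :=
            (hadj ⟨z, hz⟩ v).2 ⟨fun h => hzv (congrArg Subtype.val h), Or.inl h2⟩
          exact ⟨SimpleGraph.Walk.cons ha1 (SimpleGraph.Walk.cons ha2 SimpleGraph.Walk.nil),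
            by simp⟩
  have hne : Nonempty {x : α // IsConj t x} := ⟨⟨t, IsConj.refl t⟩⟩
  have hconn : G.Connected := by
    rw [SimpleGraph.connected_iff]
    exact ⟨fun u v => ⟨(hwalk u v).choose⟩, hne⟩
  have hed : ∀ u v, G.edist u v ≤ 2 := by
    intro u v
    obtain ⟨p, hp⟩ := hwalk u v
    exact le_trans p.edist_le (by exact_mod_cast hp)
  have hediam : G.ediam ≤ 2 := SimpleGraph.ediam_le_of_edist_le hed
  refine ⟨hconn, ?_⟩
  obtain ⟨x, y, hx, hy, hxy, h1, h2⟩ := hL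
  have hnadj : ¬ G.Adj ⟨x, hx⟩ ⟨y, hy⟩ := by
    rw [hadj]
    rintro ⟨_, h | h⟩
    · exact h1 h
    · exact h2 h
  have hne0 : G.edist ⟨x, hx⟩ ⟨y, hy⟩ ≠ 0 := by
    rw [Ne, SimpleGraph.edist_eq_zero_iff]
    intro h
    exact hxy (congrArg Subtype.val h)
  have hne1 : G.edist ⟨x, hx⟩ ⟨y, hy⟩ ≠ 1 := by
    rw [Ne, SimpleGraph.edist_eq_one_iff_adj]
    exact hnadj
  have hle2 := hed ⟨x, hx⟩ ⟨y, hy⟩
  have hge2 : (2 : ℕ∞) ≤ G.edist ⟨x, hx⟩ ⟨y, hy⟩ := by
    have hnt : G.edist ⟨x, hx⟩ ⟨y, hy⟩ ≠ ⊤ := ne_top_of_le_ne_top (by simp) hle2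
    generalize G.edist ⟨x, hx⟩ ⟨y, hy⟩ = d at hne0 hne1 hle2 hnt ⊢
    lift d to ℕ using hnt
    norm_cast at *
    omega
  have hediam2 : G.ediam = 2 :=
    le_antisymm hediam (le_trans hge2 SimpleGraph.edist_le_ediam)
  rw [SimpleGraph.diam, hediam2]
  rfl

end Cfsg.Agent.Lib.Helper78.OddGr
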