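import Mathlib

/-!
# Piece ACT of the S4025 project (helper69): the coset action transported to a complement
-/

set_option autoImplicit false

namespace Cfsg.Agent.Lib.Helper78.SAF

theorem exists_coset_action {M : Type*} [Group M] (Q : Subgroup M) [Q.Normal]
    (L : Subgroup M) (hL : Q.IsComplement' L) :
    ∃ θ : M →* Equiv.Perm ↥Q, θ.ker = L.normalCore ∧
      (∀ u v : ↥Q, θ (u : M) v = u * v) ∧
      (∀ l ∈ L, ∀ v : ↥Q, ((θ l v : ↥Q) : M) = l * (v : M) * l⁻¹) := by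
  classical
  have hbij : Function.Bijective (fun v : ↥Q => ((v : M) : M ⧸ L)) := by
    constructor
    · intro v w h
      have h' : ((v : M) : M ⧸ L) = ((w : M) : M ⧸ L) := h
      rw [QuotientGroup.eq] at h'
      have h1 : (v : M)⁻¹ * (w : M) ∈ Q ⊓ L :=
        Subgroup.mem_inf.2 ⟨Q.mul_mem (Q.inv_mem v.2) w.2, h'⟩
      rw [hL.disjoint.eq_bot, Subgroup.mem_bot] at h1
      apply Subtype.ext
      exact inv_mul_eq_one.1 h1
    · intro x
      induction x using QuotientGroup.induction_on with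
      | H m =>
        obtain ⟨⟨⟨q, hq⟩, ⟨l, hl⟩⟩, e, _⟩ := hL.existsUnique m
        refine ⟨⟨q, hq⟩, ?_⟩
        show ((q : M) : M ⧸ L) = (m : M ⧸ L)
        rw [QuotientGroup.eq]
        have e' : q * l = m := e
        rw [← e', ← mul_assoc, inv_mul_cancel, one_mul]
        exact hl
  let β : ↥Q ≃ M ⧸ L := Equiv.ofBijective _ hbij
  have hβ : ∀ v : ↥Q, β v = ((v : M) : M ⧸ L) := fun _ => rfl
  let θ : M →* Equiv.Perm ↥Q :=
    (β.symm.permCongrHom).toMonoidHom.comp (MulAction.toPermHom M (M ⧸ L))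
  have hθ : ∀ (m : M) (v : ↥Q), θ m v = β.symm (m • β v) := fun _ _ => rfl
  refine ⟨θ, ?_, ?_, ?_⟩
  · rw [Subgroup.normalCore_eq_ker]
    ext m
    rw [MonoidHom.mem_ker, MonoidHom.mem_ker]
    show (β.symm.permCongrHom) (MulAction.toPermHom M (M ⧸ L) m) = 1 ↔ _
    exact map_eq_one_iff _ (MulEquiv.injective _)
  · intro u v
    rw [hθ, Equiv.symm_apply_eq]
    rfl
  · intro l hl v
    have hw : l * (v : M) * l⁻¹ ∈ Q := ‹Q.Normal›.conj_mem (v : M) v.2 l
    have h1 : θ l v = ⟨l * (v : M) * l⁻¹, hw⟩ := by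
      rw [hθ, Equiv.symm_apply_eq, hβ, hβ]
      show ((l * (v : M) : M) : M ⧸ L) = ((l * (v : M) * l⁻¹ : M) : M ⧸ L)
      rw [QuotientGroup.eq]
      have e : (l * (v : M))⁻¹ * (l * (v : M) * l⁻¹) = l⁻¹ := by group
      rw [e]
      exact L.inv_mem hl
    rw [h1]

end Cfsg.Agent.Lib.Helper78.SAF
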