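import Mathlib
import Cfsg.Agent.Lib.Helper93.Sp4Defs

/-!
# S2293, piece SP4-P01: closure step `Q < P`, families 0 and 1
-/

set_option autoImplicit false

namespace Cfsg.Agent.Lib.Helper93.Sp4

open Polynomial Matrix
open Cfsg.Agent.Lib.Helper93.Sl3 (cj)

section level3

variable {P : Type*} [Group P] {q : ℕ} {Ua Ub T : Subgroup P} {ta tb : P}

/-- P01 -/
theorem c2_p_step01 (D : C2Data q Ua Ub T ta tb) (N : C2Act Ua Ub T ta tb) :
    ∀ y ∈ ({1} ∪ YP1 Ub tb : Set P), ∀ s ∈ SP Ua Ub T ta tb,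
      ∃ a ∈ Qsub Ua Ub T ta tb, ∃ y' ∈ YP Ua Ub ta tb, y * s = a * y' := by
  have hUaQ : ∀ g ∈ Ua, g ∈ Qsub Ua Ub T ta tb := fun g hg =>
    Subgroup.subset_closure (Or.inl (Or.inl (Or.inl (Or.inl (Or.inl hg)))))
  have hUbQ : ∀ g ∈ Ub, g ∈ Qsub Ua Ub T ta tb := fun g hg =>
    Subgroup.subset_closure (Or.inl (Or.inl (Or.inl (Or.inl (Or.inr hg)))))
  have hUabQ : ∀ g ∈ cj tb Ua, g ∈ Qsub Ua Ub T ta tb := fun g hg =>
    Subgroup.subset_closure (Or.inl (Or.inl (Or.inl (Or.inr hg))))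
  have hUaabQ : ∀ g ∈ cj ta Ub, g ∈ Qsub Ua Ub T ta tb := fun g hg =>
    Subgroup.subset_closure (Or.inl (Or.inl (Or.inr hg)))
  have hTQ : ∀ g ∈ T, g ∈ Qsub Ua Ub T ta tb := fun g hg =>
    Subgroup.subset_closure (Or.inl (Or.inr hg))
  have htaQ : ta ∈ Qsub Ua Ub T ta tb := Subgroup.subset_closure (Or.inr rfl)
  have h1YP : (1 : P) ∈ YP Ua Ub ta tb := Or.inl (Or.inl (Or.inl rfl))
  have hYP1 : ∀ x ∈ Ub, tb * x ∈ YP Ua Ub ta tb := fun x hx =>
    Or.inl (Or.inl (Or.inr ⟨x, hx, rfl⟩))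
  intro y hy s hs
  rcases hy with hy | hy
  · have hy1 : y = 1 := hy
    subst hy1
    rcases hs with ((hs | hs) | hs) | hs
    · exact ⟨s, hUaQ s hs, 1, h1YP, by rw [one_mul, mul_one]⟩
    · exact ⟨s, hUbQ s hs, 1, h1YP, by rw [one_mul, mul_one]⟩
    · exact ⟨s, hTQ s hs, 1, h1YP, by rw [one_mul, mul_one]⟩
    · rcases hs with hs | hs
      · have hsa : s = ta := hs
        rw [hsa]
        exact ⟨ta, htaQ, 1, h1YP, by rw [one_mul, mul_one]⟩
      · have hsb : s = tb := hs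
        rw [hsb]
        exact ⟨1, one_mem _, tb * 1, hYP1 1 (one_mem _), by rw [one_mul, one_mul, mul_one]⟩
  · obtain ⟨x, hx, rfl⟩ : ∃ x ∈ Ub, y = tb * x := hy
    rcases hs with ((hs | hs) | hs) | hs
    · -- `s ∈ Ua`
      obtain ⟨z1, hz1, z2, hz2, hc⟩ := D.c1 s⁻¹ (Ua.inv_mem hs) x hx
      have hxs : x * s = s * z1 * z2 * x := by
        have h1 : s * (z1 * z2) * x = x * s := by
          rw [← hc]
          group
        rw [← h1]
        group
      refine ⟨(tb * s * tb⁻¹) * (tb * z1 * tb⁻¹) * (tb * z2 * tb⁻¹), ?_, tb * x, hYP1 x hx, ?_⟩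
      · refine Subgroup.mul_mem _ (Subgroup.mul_mem _ (hUabQ _ (Sl3.conj_mem_cj hs))
          (hUaQ _ ?_)) (hUaabQ _ ?_)
        · have h2 := Sl3.conj_mem_cj (n := tb) hz1
          rw [N.tb_ab] at h2
          exact h2
        · have h2 := Sl3.conj_mem_cj (n := tb) hz2
          rw [D.n2] at h2
          exact h2
      · calc tb * x * s = tb * (x * s) := by group
          _ = tb * (s * z1 * z2 * x) := by rw [hxs]
          _ = _ := by group
    · -- `s ∈ Ub`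
      exact ⟨1, one_mem _, tb * (x * s), hYP1 _ (Ub.mul_mem hx hs), by group⟩
    · -- `s ∈ T`
      refine ⟨tb * s * tb⁻¹, hTQ _ (D.Ttb s hs), tb * (s⁻¹ * x * s), hYP1 _ ?_, by group⟩
      have h2 := D.TUb s⁻¹ (T.inv_mem hs) x hx
      rwa [inv_inv] at h2
    · rcases hs with hs | hs
      · have hsa : s = ta := hs
        rw [hsa]
        refine ⟨1, one_mem _, tb * ta * 1 * (ta⁻¹ * x * ta),
          Or.inl (Or.inr ⟨1, one_mem _, ta⁻¹ * x * ta, ?_, rfl⟩), by group⟩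
        have h2 := Sl3.conj_mem_cj (n := ta⁻¹) hx
        rw [inv_inv, N.tainv_b] at h2
        exact h2
      · have hsb : s = tb := hs
        rw [hsb]
        by_cases hx1 : x = 1
        · rw [hx1]
          exact ⟨tb ^ 2, hTQ _ D.tb2, 1, h1YP, by rw [pow_two]; group⟩
        · obtain ⟨w, hw, τ, hτ, x', hx', hr⟩ := D.rank1b x hx hx1
          refine ⟨(tb ^ 2 * w * (tb ^ 2)⁻¹) * (tb * τ * tb⁻¹), ?_, tb * x', hYP1 x' hx', ?_⟩
          · exact Subgroup.mul_mem _ (hUbQ _ (D.TUb _ D.tb2 w hw)) (hTQ _ (D.Ttb τ hτ))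
          · calc tb * x * tb = tb * (x * tb) := by group
              _ = tb * (tb * w * tb⁻¹ * τ * x') := by rw [hr]
              _ = _ := by rw [pow_two]; group

end level3

end Cfsg.Agent.Lib.Helper93.Sp4
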